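import Mathlib
import Cfsg.Agent.Lib.M11Ord.Five
import Cfsg.Agent.Lib.Char.Values2

/-!
# Simple groups of order 7920: the Sylow 5-subgroups
-/

set_option autoImplicit false
set_option linter.unusedSectionVars false

namespace Cfsg.Agent.Lib.M11Ord

open Cfsg Subgroup Finset
open Cfsg.Agent.Lib.Blocks.Principal (trivChar coe_trivChar)
open Cfsg.Agent.Lib.DefectOne
open scoped ComplexConjugate

universe u

variable {G : Type u} [Group G] [Finite G] [IsSimpleGroup G]

omit [IsSimpleGroup G] in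
lemma orderOf_of_mem_zpowers {p : ℕ} (hp : p.Prime) {z s : G} (hz : orderOf z = p) (hs : s ∈ zpowers z) (h1 : s ≠ 1) :
    orderOf s = p := by
  have h2 := orderOf_dvd_natCard (G := zpowers z) ⟨s, hs⟩
  rw [Nat.card_zpowers, hz, Subgroup.orderOf_mk] at h2
  rcases (Nat.dvd_prime hp).1 h2 with h3 | h3
  · exact absurd (orderOf_eq_one_iff.1 h3) h1
  · exact h3

omit [IsSimpleGroup G] in
lemma comm_zpowers {y z s : G} (hc : y * z = z * y) (hs : s ∈ zpowers z) : y * s = s * y := by
  obtain ⟨k, rfl⟩ := Subgroup.mem_zpowers_iff.1 hs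
  exact (Commute.zpow_right hc k).eq

/-- The values at an involution commuting with an element of order 5 of characters of degree divisible by 5. -/
lemma values5 (hG : Nat.card G = 7920) (χ : IrrCharacter G) (h5 : 5 ∣ dg χ) {z y : G} (hz : orderOf z = 5) (hy : orderOf y = 2)
    (hc : y * z = z * y) : ∃ (v : ℤ) (n₁ n₂ : ℕ), (χ : G → ℂ) y = v ∧ (dg χ : ℤ) + v = 10 * n₁ ∧ (dg χ : ℤ) - v = 10 * n₂ := by
  classical
  haveI : Fintype (zpowers z) := Fintype.ofFinite _
  have hp5 : Nat.Prime 5 := by norm_num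
  have hv : ∀ g : G, 5 ∣ orderOf g → (χ : G → ℂ) g = 0 := by
    intro g hg
    refine vanish_of_dvd χ hp5 (n := 1) (by rw [hG]; norm_num) (by rw [hG]; norm_num) (by simpa using h5) g hg
  obtain ⟨n₁, n₂, h1, h2⟩ := mult_invol (isChar χ) hy (S := zpowers z)
    (fun s hs => comm_zpowers hc hs)
    (fun s hs hs1 => hv s (by rw [orderOf_of_mem_zpowers hp5 hz hs hs1]))
    (fun s hs hs1 => hv _ (by
      have h3 : orderOf s = 5 := orderOf_of_mem_zpowers hp5 hz hs hs1
      rw [Commute.orderOf_mul_eq_mul_orderOf_of_coprime (comm_zpowers hc hs) (by rw [hy, h3]; norm_num), h3]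
      exact Dvd.intro_left _ rfl))
  obtain ⟨v, hv1, -⟩ := Cfsg.Agent.Lib.Char.Values2.character_involution (χ : G → ℂ) (isChar χ) y hy
  refine ⟨v, n₁, n₂, hv1, ?_, ?_⟩
  · rw [dg_cast, hv1, Nat.card_zpowers, hz] at h1
    have : (((dg χ : ℤ) + v : ℤ) : ℂ) = ((10 * n₁ : ℤ) : ℂ) := by
      push_cast at h1 ⊢
      linear_combination h1
    exact_mod_cast this
  · rw [dg_cast, hv1, Nat.card_zpowers, hz] at h2
    have : (((dg χ : ℤ) - v : ℤ) : ℂ) = ((10 * n₂ : ℤ) : ℂ) := by
      push_cast at h2 ⊢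
      linear_combination h2
    exact_mod_cast this

/-- A character of degree 5 forbids involutions commuting with elements of order 5. -/
theorem no_invol_B (hG : Nat.card G = 7920) (ψ : IrrCharacter G) (hψ : dg ψ = 5) {z y : G} (hz : orderOf z = 5)
    (hy : orderOf y = 2) (hc : y * z = z * y) : False := by
  obtain ⟨v, n₁, n₂, h1, h2, h3⟩ := values5 hG ψ (by omega) hz hy hc
  rw [hψ] at h2 h3
  have hψt : ψ ≠ trivChar G := by
    rintro rfl
    rw [dg_triv] at hψ
    omega
  have h4 : v = 5 ∨ v = -5 := by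
    push_cast at h2 h3
    omega
  have h5 : ‖(ψ : G → ℂ) y‖ = (dg ψ : ℝ) := by
    rw [h1, hψ]
    rcases h4 with h | h <;> rw [h] <;> simp
  have h6 := eq_one_of_norm_eq (noncomm_of_card hG) hψt h5
  rw [h6] at hy
  simp at hy

/-- The arithmetic contradiction for the table with rows of degrees `1, 10, 10, 10, 45` and `16`. -/
theorem no_invol_A (hG : Nat.card G = 7920) {α β γ κ θ : IrrCharacter G} (dα : dg α = 10) (dβ : dg β = 10) (dγ : dg γ = 10)
    (dκ : dg κ = 45) (dθ : dg θ = 16) (hrel : ∀ g : G, ¬ 11 ∣ orderOf g → (θ : G → ℂ) g =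
      1 + (κ : G → ℂ) g - (α : G → ℂ) g - (β : G → ℂ) g - (γ : G → ℂ) g) {z y : G} (hz : orderOf z = 5)
    (hy : orderOf y = 2) (hc : y * z = z * y) : False := by
  obtain ⟨a, a1, a2, ha, ha1, ha2⟩ := values5 hG α (by omega) hz hy hc
  obtain ⟨b, b1, b2, hb, hb1, hb2⟩ := values5 hG β (by omega) hz hy hc
  obtain ⟨c, c1, c2, hc', hc1, hc2⟩ := values5 hG γ (by omega) hz hy hc
  obtain ⟨k, k1, k2, hk, hk1, hk2⟩ := values5 hG κ (by omega) hz hy hc
  rw [dα] at ha1 ha2
  rw [dβ] at hb1 hb2
  rw [dγ] at hc1 hc2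
  rw [dκ] at hk1 hk2
  have hθ : (θ : G → ℂ) y = 0 := by
    refine vanish_of_dvd θ Nat.prime_two (n := 4) (by rw [hG]; norm_num) (by rw [hG]; norm_num) (by rw [dθ]; norm_num) y ?_
    rw [hy]
  have h1 := hrel y (by rw [hy]; norm_num)
  rw [hθ, ha, hb, hc', hk] at h1
  have h2 : (1 + k - a - b - c : ℤ) = 0 := by
    have : ((1 + k - a - b - c : ℤ) : ℂ) = ((0 : ℤ) : ℂ) := by
      push_cast
      exact h1.symm
    exact_mod_cast this
  push_cast at ha1 ha2 hb1 hb2 hc1 hc2 hk1 hk2
  omega

/-- The structure at the prime 5. -/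
theorem five_data (hG : Nat.card G = 7920)
    (hno : ∀ {z y : G}, orderOf z = 5 → orderOf y = 2 → y * z = z * y → False) {z : G} (hz : orderOf z = 5) :
    (∀ c : G, c * z = z * c → c ∈ zpowers z) ∧ Nat.card (normalizer ((zpowers z : Subgroup G) : Set G)) = 20 := by
  classical
  haveI hp5 : Fact (Nat.Prime 5) := ⟨by norm_num⟩
  obtain ⟨P, hP⟩ := exists_sylow_zpowers (G := G) (by rw [hG]; norm_num) hz
  have hcP : Nat.card (P : Subgroup G) = 5 := by rw [← hP, Nat.card_zpowers, hz]
  set C := centralizer ((zpowers z : Subgroup G) : Set G) with hC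
  have hCN : C ≤ normalizer ((zpowers z : Subgroup G) : Set G) := Subgroup.centralizer_le_normalizer _
  have hzC : zpowers z ≤ C := by
    intro g hg
    rw [hC, Subgroup.mem_centralizer_iff]
    intro h hh
    obtain ⟨k, rfl⟩ := Subgroup.mem_zpowers_iff.1 hh
    obtain ⟨l, rfl⟩ := Subgroup.mem_zpowers_iff.1 hg
    exact (Commute.zpow_zpow_self z k l).eq
  have hmemC : ∀ y, y ∈ C → y * z = z * y := fun y hy =>
    ((Subgroup.mem_centralizer_iff.1 hy) z (mem_zpowers z)).symm
  have h2 : ¬ 2 ∣ Nat.card C := by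
    intro h
    haveI : Fact (Nat.Prime 2) := ⟨Nat.prime_two⟩
    obtain ⟨y, hy⟩ := exists_prime_orderOf_dvd_card' (G := C) 2 h
    exact hno hz (by rw [Subgroup.orderOf_coe, hy]) (hmemC y y.2)
  have h11 : ¬ 11 ∣ Nat.card C := by
    intro h
    haveI : Fact (Nat.Prime 11) := ⟨by norm_num⟩
    obtain ⟨y, hy⟩ := exists_prime_orderOf_dvd_card' (G := C) 11 h
    have hy' : orderOf (y : G) = 11 := by rw [Subgroup.orderOf_coe, hy]
    have h3 := eleven_self_cen hG hy' (hmemC y y.2).symm
    have h4 := orderOf_dvd_of_mem_zpowers h3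
    rw [hy', hz] at h4
    omega
  have h5 : 5 ∣ Nat.card C := by
    have h1 : Nat.card (zpowers z) ∣ Nat.card C := Subgroup.card_dvd_of_le hzC
    rwa [Nat.card_zpowers, hz] at h1
  have hdC : Nat.card C ∣ 45 := by
    have h1 : Nat.card C ∣ 16 * 495 := by
      have := Subgroup.card_subgroup_dvd_card C
      rwa [hG] at this
    have h3 : Nat.Coprime (Nat.card C) 16 :=
      Nat.Coprime.pow_right 4 ((Nat.Prime.coprime_iff_not_dvd Nat.prime_two).2 h2).symm
    have h4 : Nat.card C ∣ 495 := h3.dvd_of_dvd_mul_left h1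
    have h6 : Nat.Coprime (Nat.card C) 11 := ((Nat.Prime.coprime_iff_not_dvd (by norm_num)).2 h11).symm
    have h7 : Nat.card C ∣ 11 * 45 := h4
    exact h6.dvd_of_dvd_mul_left h7
  have hcC : Nat.card C = 5 ∨ Nat.card C = 15 ∨ Nat.card C = 45 := by
    have h55 : Nat.card C ∈ Nat.divisors 45 := by
      rw [Nat.mem_divisors]
      exact ⟨hdC, by norm_num⟩
    have : Nat.divisors 45 = {1, 3, 5, 9, 15, 45} := by decide
    rw [this] at h55
    simp only [Finset.mem_insert, Finset.mem_singleton] at h55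
    rcases h55 with h | h | h | h | h | h <;> rw [h] at h5 ⊢ <;> first | omega | simp
  -- the index in the normalizer
  set e := C.relIndex (normalizer ((zpowers z : Subgroup G) : Set G)) with he
  have hNcard : Nat.card (normalizer ((zpowers z : Subgroup G) : Set G)) = e * Nat.card C := by
    have h1 := Subgroup.card_mul_index (C.subgroupOf (normalizer ((zpowers z : Subgroup G) : Set G)))
    have h3 : Nat.card (C.subgroupOf (normalizer ((zpowers z : Subgroup G) : Set G))) = Nat.card C :=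
      Nat.card_congr (Subgroup.subgroupOfEquivOfLe hCN).toEquiv
    rw [h3] at h1
    rw [← h1, he, Subgroup.relIndex, mul_comm]
  have hedvd : e ∣ 4 := by
    have key := Subgroup.card_dvd_of_injective _
      (QuotientGroup.kerLift_injective (zpowers z : Subgroup G).normalizerMonoidHom)
    rw [Subgroup.normalizerMonoidHom_ker, ← Subgroup.index, ← Subgroup.relIndex, IsCyclic.card_mulAut, Nat.card_zpowers, hz] at key
    have ht : Nat.totient 5 = 4 := by decide
    rwa [ht] at key
  have hecases : e = 1 ∨ e = 2 ∨ e = 4 := by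
    have h55 : e ∈ Nat.divisors 4 := by
      rw [Nat.mem_divisors]
      exact ⟨hedvd, by norm_num⟩
    have : Nat.divisors 4 = {1, 2, 4} := by decide
    rw [this] at h55
    simpa using h55
  have hs := card_sylow_mul P
  rw [← hP, hNcard, hG] at hs
  have hmod : Nat.card (Sylow 5 G) % 5 = 1 := by
    have := card_sylow_modEq_one 5 G
    simpa [Nat.ModEq] using this
  have hfinal : Nat.card C = 5 ∧ e = 4 := by
    rcases hecases with h1 | h1 | h1 <;> rcases hcC with h3 | h3 | h3 <;> rw [h1, h3] at hs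
    · omega
    · omega
    · exfalso
      have hle : normalizer ((P : Subgroup G) : Set G) ≤ centralizer ((P : Subgroup G) : Set G) := by
        rw [← hP]
        exact Subgroup.relIndex_eq_one.mp h1
      have := Cfsg.Agent.Lib.Basic.SmallSimple.card_eq_of_le_centralizer (G := G) (p := 5) (by rw [hG]; norm_num) P hle
      omega
    · omega
    · omega
    · omega
    · exact ⟨h3, h1⟩
    · omega
    · omega
  constructor
  · intro c hc
    have hcC' : c ∈ C := by
      rw [hC, Subgroup.mem_centralizer_iff]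
      intro h hh
      obtain ⟨k, rfl⟩ := Subgroup.mem_zpowers_iff.1 hh
      exact (Commute.zpow_right hc k).symm.eq
    have : zpowers z = C := Subgroup.eq_of_le_of_card_ge hzC (by rw [hfinal.1, Nat.card_zpowers, hz])
    rw [this]
    exact hcC'
  · rw [hNcard, hfinal.1, hfinal.2]

end Cfsg.Agent.Lib.M11Ord
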