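import Mathlib
import Cfsg.Agent.Lib.M11Ord.Five2

/-!
# Simple groups of order 7920: the degrees of the irreducible characters
-/

set_option autoImplicit false
set_option linter.unusedSectionVars false

namespace Cfsg.Agent.Lib.M11Ord

open Cfsg Subgroup Finset
open Cfsg.Agent.Lib.Blocks.Principal (trivChar coe_trivChar)
open Cfsg.Agent.Lib.DefectOne
open scoped ComplexConjugate

universe u

variable {G : Type u} [Group G] [Finite G] [IsSimpleGroup G]

/-- The sign attached to a degree modulo 5. -/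
def sg5 (d : ℕ) : ℤ := if d % 5 = 1 then 1 else -1

/-- The table at the prime 5. -/
theorem table5 (hG : Nat.card G = 7920)
    (hno : ∀ {z y : G}, orderOf z = 5 → orderOf y = 2 → y * z = z * y → False) :
    ∃ S : Finset (IrrCharacter G), S.card = 5 ∧ (∀ χ, χ ∈ S ↔ ¬ 5 ∣ dg χ) ∧ (∀ χ ∈ S, dg χ % 5 = 1 ∨ dg χ % 5 = 4) ∧
      ∀ g : G, ¬ 5 ∣ orderOf g → ∑ χ ∈ S, (sg5 (dg χ) : ℂ) * (χ : G → ℂ) g = 0 := by
  classical
  haveI : Fintype G := Fintype.ofFinite G
  haveI hp5 : Fact (Nat.Prime 5) := ⟨by norm_num⟩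
  obtain ⟨z, hz⟩ := exists_prime_orderOf_dvd_card' (G := G) 5 (by rw [hG]; norm_num)
  obtain ⟨P, hP⟩ := exists_sylow_zpowers (G := G) (by rw [hG]; norm_num) hz
  obtain ⟨hcen, hN⟩ := five_data hG hno hz
  have hζ : IsPrimitiveRoot (Complex.exp (2 * Real.pi * Complex.I / (5 : ℕ))) 5 :=
    Complex.isPrimitiveRoot_exp 5 (by norm_num)
  obtain ⟨e, t, X, Y, δ, ε, b, hT⟩ := exists_scTable hz hcen P hP hζ
  have hcN := hT.cardN
  rw [hN] at hcN
  have he : e = 4 := by omega
  subst he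
  have ht : t = 1 := by
    have := hT.het
    omega
  subst ht
  obtain ⟨y₀, hY⟩ := Finset.card_eq_one.1 hT.cardY
  have hy₀ : y₀ ∈ Y := by rw [hY]; simp
  have hdegX : ∀ χ ∈ X, (dg χ % 5 = 1 ∧ δ χ = 1) ∨ (dg χ % 5 = 4 ∧ δ χ = -1) := by
    intro χ hχ
    have hd : (dg χ : ℤ) ≡ δ χ [ZMOD ((5 : ℕ) : ℤ)] := hT.degX χ hχ
    have hd' : ((dg χ : ℤ) - δ χ) % 5 = 0 := by
      have h3 := Int.ModEq.sub_right (δ χ) hd
      simp only [sub_self] at h3
      simpa [Int.ModEq] using h3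
    rcases hT.signX χ hχ with h | h
    · left
      rw [h] at hd'
      exact ⟨by omega, h⟩
    · right
      rw [h] at hd'
      exact ⟨by omega, h⟩
  have hdegY : (dg y₀ % 5 = 4 ∧ ε = 1) ∨ (dg y₀ % 5 = 1 ∧ ε = -1) := by
    obtain ⟨m, hm, hm1⟩ := hT.degY y₀ hy₀
    have hm' : (dg y₀ : ℤ) = 5 * m + ε * 4 := by
      have h1 : (charDegree ((y₀ : IrrCharacter G) : G → ℂ) : ℤ) = ((5 : ℕ) : ℤ) * m + ε * ((4 : ℕ) : ℤ) := hm
      have h2 : (dg y₀ : ℤ) = (charDegree ((y₀ : IrrCharacter G) : G → ℂ) : ℤ) := rfl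
      rw [h2, h1]
      norm_num
    rcases hT.sign with h | h
    · left
      rw [h] at hm'
      exact ⟨by omega, h⟩
    · right
      have := hm1 h
      rw [h] at hm'
      exact ⟨by omega, h⟩
  refine ⟨X ∪ Y, ?_, ?_, ?_, ?_⟩
  · rw [Finset.card_union_of_disjoint hT.disj, hT.cardX, hT.cardY]
  · intro χ
    constructor
    · intro hχ
      rcases Finset.mem_union.1 hχ with h | h
      · rcases hdegX χ h with h1 | h1 <;> omega
      · rw [hY, Finset.mem_singleton] at h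
        subst h
        rcases hdegY with h1 | h1 <;> omega
    · intro h5
      by_contra hχ
      apply h5
      have h0 := hT.out χ hχ 1 one_ne_zero
      have h1 : XX z (1 : ZMod 5) = z := by
        have := XX_natCast (p := 5) hz 1
        simpa using this
      rw [h1] at h0
      exact Cfsg.Agent.Lib.Char.Values2.dvd_degree_of_vanish_pelement 5 hp5.out (χ : G → ℂ) (isChar χ) z
        ⟨1, by rw [hz, pow_one]⟩ h0
  · intro χ hχ
    rcases Finset.mem_union.1 hχ with h | h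
    · rcases hdegX χ h with h1 | h1
      · exact Or.inl h1.1
      · exact Or.inr h1.1
    · rw [hY, Finset.mem_singleton] at h
      subst h
      rcases hdegY with h1 | h1
      · exact Or.inr h1.1
      · exact Or.inl h1.1
  · intro g hg
    have h1 := hT.rel g hg y₀ hy₀
    rw [Finset.sum_union hT.disj, hY, Finset.sum_singleton]
    have h2 : ∑ χ ∈ X, (sg5 (dg χ) : ℂ) * (χ : G → ℂ) g = ∑ χ ∈ X, (δ χ : ℂ) * (χ : G → ℂ) g := by
      refine Finset.sum_congr rfl fun χ hχ => ?_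
      rcases hdegX χ hχ with h3 | h3
      · rw [h3.2, sg5, if_pos h3.1]
      · rw [h3.2, sg5, if_neg (by omega)]
    rw [h2, ← h1]
    rcases hdegY with h3 | h3
    · rw [h3.2, sg5, if_neg (by omega)]
      push_cast
      ring
    · rw [h3.2, sg5, if_pos h3.1]
      push_cast
      ring

attribute [local instance] Classical.propDecidable

/-- The rows of the character table. -/
structure Rows (α β γ κ θ θ' ν μ ξ : IrrCharacter G) : Prop where
  dα : dg α = 10
  dβ : dg β = 10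
  dγ : dg γ = 10
  dκ : dg κ = 45
  dθ : dg θ = 16
  dθ' : dg θ' = 16
  dν : dg ν = 11
  dμ : dg μ = 44
  dξ : dg ξ = 55
  nαβ : α ≠ β
  nαγ : α ≠ γ
  nβγ : β ≠ γ
  nθ : θ ≠ θ'
  univ_eq : (univ : Finset (IrrCharacter G)) = {trivChar G, α, β, γ, κ, θ, θ', ν, μ, ξ}
  r11 : ∀ g : G, ¬ 11 ∣ orderOf g → (θ : G → ℂ) g = 1 + (κ : G → ℂ) g - (α : G → ℂ) g - (β : G → ℂ) g - (γ : G → ℂ) g
  r11' : ∀ g : G, ¬ 11 ∣ orderOf g → (θ' : G → ℂ) g = 1 + (κ : G → ℂ) g - (α : G → ℂ) g - (β : G → ℂ) g - (γ : G → ℂ) g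
  r5 : ∀ g : G, ¬ 5 ∣ orderOf g → 1 + (ν : G → ℂ) g + (θ : G → ℂ) g + (θ' : G → ℂ) g - (μ : G → ℂ) g = 0

set_option maxRecDepth 100000 in
lemma numeric_m : ∀ m₁ ∈ Finset.range 8, ∀ m₂ ∈ Finset.range 8, ∀ n ∈ Finset.range 3, m₁ ^ 2 + m₂ ^ 2 + 25 * n = 42 →
    n = 1 ∧ ((m₁ = 1 ∧ m₂ = 4) ∨ (m₁ = 4 ∧ m₂ = 1)) := by decide

set_option maxHeartbeats 2000000 in
/-- **The existence of the rows.** -/
theorem exists_rows (hG : Nat.card G = 7920) : ∃ α β γ κ θ θ' ν μ ξ : IrrCharacter G, Rows α β γ κ θ θ' ν μ ξ := by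
  classical
  haveI : Fintype G := Fintype.ofFinite G
  haveI hp11 : Fact (Nat.Prime 11) := ⟨by norm_num⟩
  obtain ⟨x, hx⟩ := exists_prime_orderOf_dvd_card' (G := G) 11 (by rw [hG]; norm_num)
  obtain ⟨P, hP⟩ := exists_sylow_zpowers (G := G) (by rw [hG]; norm_num) hx
  have hζ : IsPrimitiveRoot (Complex.exp (2 * Real.pi * Complex.I / (11 : ℕ))) 11 :=
    Complex.isPrimitiveRoot_exp 11 (by norm_num)
  obtain ⟨e, t, X, Y, δ, ε, b, hT⟩ := exists_scTable hx (fun c hc => eleven_self_cen hG hx hc) P hP hζ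
  obtain ⟨hε, hcY, hcX', htX, htδ, hcases⟩ := table11 hG hx hT
  rcases hcases with ⟨hY16, hX', hc45, hc10⟩ | ⟨hY5, hX', hc12⟩
  swap
  · -- the table with a character of degree 5 is impossible
    exfalso
    obtain ⟨ψ, hψ⟩ : Y.Nonempty := by
      rw [← Finset.card_pos, hcY]
      norm_num
    have hno : ∀ {z y : G}, orderOf z = 5 → orderOf y = 2 → y * z = z * y → False :=
      fun hz hy hc => no_invol_B hG ψ (hY5 ψ hψ) hz hy hc
    obtain ⟨S, -, hS, hS2, -⟩ := table5 hG hno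
    obtain ⟨ρ, hρ⟩ := Finset.card_pos.1 (by omega : 0 < ((X.erase (trivChar G)).filter (fun χ => dg χ = 12)).card)
    have hρ12 := (Finset.mem_filter.1 hρ).2
    have h1 : ρ ∈ S := (hS ρ).2 (by rw [hρ12]; norm_num)
    have h2 := hS2 ρ h1
    rw [hρ12] at h2
    omega
  -- names of the rows
  obtain ⟨κ, hκ⟩ := Finset.card_eq_one.1 hc45
  obtain ⟨α, β, γ, nαβ, nαγ, nβγ, hF10⟩ := Finset.card_eq_three.1 hc10
  obtain ⟨θ, θ', nθ, hYe⟩ := Finset.card_eq_two.1 hcY
  have hθ : θ ∈ Y := by rw [hYe]; simp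
  have hθ' : θ' ∈ Y := by rw [hYe]; simp
  have dθ := hY16 θ hθ
  have dθ' := hY16 θ' hθ'
  have hκm : κ ∈ (X.erase (trivChar G)).filter (fun χ => dg χ = 45) := by rw [hκ]; simp
  have hαm : α ∈ (X.erase (trivChar G)).filter (fun χ => dg χ = 10) := by rw [hF10]; simp
  have hβm : β ∈ (X.erase (trivChar G)).filter (fun χ => dg χ = 10) := by rw [hF10]; simp
  have hγm : γ ∈ (X.erase (trivChar G)).filter (fun χ => dg χ = 10) := by rw [hF10]; simp
  obtain ⟨hκX, dκ⟩ := Finset.mem_filter.1 hκm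
  obtain ⟨hαX, dα⟩ := Finset.mem_filter.1 hαm
  obtain ⟨hβX, dβ⟩ := Finset.mem_filter.1 hβm
  obtain ⟨hγX, dγ⟩ := Finset.mem_filter.1 hγm
  have hδκ : δ κ = 1 := by
    rcases hX' κ hκX with h | h
    · exact h.1
    · omega
  have hδα : δ α = -1 := by
    rcases hX' α hαX with h | h
    · omega
    · exact h.1
  have hδβ : δ β = -1 := by
    rcases hX' β hβX with h | h
    · omega
    · exact h.1
  have hδγ : δ γ = -1 := by
    rcases hX' γ hγX with h | h
    · omega
    · exact h.1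
  -- the explicit form of `X`
  have hXe' : X.erase (trivChar G) = {κ, α, β, γ} := by
    ext χ
    constructor
    · intro hχ
      rcases hX' χ hχ with h | h
      · have : χ ∈ (X.erase (trivChar G)).filter (fun χ => dg χ = 45) := Finset.mem_filter.2 ⟨hχ, h.2⟩
        rw [hκ, Finset.mem_singleton] at this
        simp [this]
      · have : χ ∈ (X.erase (trivChar G)).filter (fun χ => dg χ = 10) := Finset.mem_filter.2 ⟨hχ, h.2⟩
        rw [hF10] at this
        simp only [Finset.mem_insert, Finset.mem_singleton] at this ⊢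
        tauto
    · intro hχ
      simp only [Finset.mem_insert, Finset.mem_singleton] at hχ
      rcases hχ with rfl | rfl | rfl | rfl <;> assumption
  have nκα : κ ≠ α := fun h => by rw [h] at dκ; omega
  have nκβ : κ ≠ β := fun h => by rw [h] at dκ; omega
  have nκγ : κ ≠ γ := fun h => by rw [h] at dκ; omega
  have hsumX : ∀ F : IrrCharacter G → ℂ, ∑ χ ∈ X, F χ = F (trivChar G) + (F κ + (F α + (F β + F γ))) := by
    intro F
    rw [← Finset.add_sum_erase X _ htX, hXe', Finset.sum_insert (by simp [nκα, nκβ, nκγ]),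
      Finset.sum_insert (by simp [nαβ, nαγ]), Finset.sum_pair nβγ]
  have hrelY : ∀ τ ∈ Y, ∀ g : G, ¬ 11 ∣ orderOf g →
      (τ : G → ℂ) g = 1 + (κ : G → ℂ) g - (α : G → ℂ) g - (β : G → ℂ) g - (γ : G → ℂ) g := by
    intro τ hτ g hg
    have h1 := hT.rel g hg τ hτ
    rw [hsumX, htδ, hδκ, hδα, hδβ, hδγ, hε, coe_trivChar] at h1
    push_cast at h1
    linear_combination h1
  -- prime 5
  have hno : ∀ {z y : G}, orderOf z = 5 → orderOf y = 2 → y * z = z * y → False :=
    fun hz hy hc => no_invol_A hG dα dβ dγ dκ dθ (hrelY θ hθ) hz hy hc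
  obtain ⟨S, hcS, hS, hS2, hSrel⟩ := table5 hG hno
  -- the remaining characters
  set O : Finset (IrrCharacter G) := univ \ (X ∪ Y) with hO
  have hO11 : ∀ χ ∈ O, 11 ∣ dg χ := by
    intro χ hχ
    have hχ' : χ ∉ X ∪ Y := (Finset.mem_sdiff.1 hχ).2
    have h0 := hT.out χ hχ' 1 one_ne_zero
    have h1 : XX x (1 : ZMod 11) = x := by
      have := XX_natCast (p := 11) hx 1
      simpa using this
    rw [h1] at h0
    exact Cfsg.Agent.Lib.Char.Values2.dvd_degree_of_vanish_pelement 11 hp11.out (χ : G → ℂ) (isChar χ) x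
      ⟨1, by rw [hx, pow_one]⟩ h0
  have hsumO : ∑ χ ∈ O, dg χ ^ 2 = 5082 := by
    have h1 := sum_dg_sq (G := G)
    rw [hG, ← Finset.sum_sdiff (Finset.subset_univ (X ∪ Y)), Finset.sum_union hT.disj] at h1
    have h2 : ∑ χ ∈ X, dg χ ^ 2 = 2326 := by
      have h3 := hsumX (fun χ => ((dg χ ^ 2 : ℕ) : ℂ))
      simp only [dg_triv, dκ, dα, dβ, dγ] at h3
      have h4 : ((∑ χ ∈ X, dg χ ^ 2 : ℕ) : ℂ) = ((2326 : ℕ) : ℂ) := by
        push_cast at h3 ⊢
        rw [h3]
        norm_num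
      exact_mod_cast h4
    have h3 : ∑ χ ∈ Y, dg χ ^ 2 = 512 := by
      rw [hYe, Finset.sum_pair nθ, dθ, dθ']
      norm_num
    rw [h2, h3] at h1
    have h1' : ∑ χ ∈ O, dg χ ^ 2 + (2326 + 512) = 7920 := h1
    omega
  -- those of degree prime to 5
  have htS : trivChar G ∈ S := (hS _).2 (by rw [dg_triv]; norm_num)
  have hθS : θ ∈ S := (hS _).2 (by rw [dθ]; norm_num)
  have hθ'S : θ' ∈ S := (hS _).2 (by rw [dθ']; norm_num)
  have hnt : trivChar G ≠ θ := fun h => by rw [← h, dg_triv] at dθ; omega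
  have hnt' : trivChar G ≠ θ' := fun h => by rw [← h, dg_triv] at dθ'; omega
  set O₁ := O.filter (fun χ => ¬ 5 ∣ dg χ) with hO₁
  set O₂ := O.filter (fun χ => 5 ∣ dg χ) with hO₂
  have hSe : S = {trivChar G, θ, θ'} ∪ O₁ := by
    ext χ
    constructor
    · intro hχ
      by_cases hχ' : χ ∈ X ∪ Y
      · rcases Finset.mem_union.1 hχ' with h | h
        · by_cases h1 : χ = trivChar G
          · simp [h1]
          · have h2 : χ ∈ X.erase (trivChar G) := Finset.mem_erase.2 ⟨h1, h⟩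
            exfalso
            have h3 := (hS χ).1 hχ
            rcases hX' χ h2 with h4 | h4 <;> rw [h4.2] at h3 <;> omega
        · rw [hYe] at h
          simp only [Finset.mem_insert, Finset.mem_singleton] at h
          simp only [Finset.mem_union, Finset.mem_insert, Finset.mem_singleton]
          tauto
      · apply Finset.mem_union_right
        rw [hO₁, Finset.mem_filter, hO, Finset.mem_sdiff]
        exact ⟨⟨Finset.mem_univ _, hχ'⟩, (hS χ).1 hχ⟩
    · intro hχ
      rcases Finset.mem_union.1 hχ with h | h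
      · simp only [Finset.mem_insert, Finset.mem_singleton] at h
        rcases h with rfl | rfl | rfl <;> assumption
      · exact (hS χ).2 (Finset.mem_filter.1 h).2
  have hdisj : Disjoint ({trivChar G, θ, θ'} : Finset (IrrCharacter G)) O₁ := by
    rw [Finset.disjoint_left]
    intro χ hχ hχ'
    have h1 : χ ∉ X ∪ Y := (Finset.mem_sdiff.1 (Finset.mem_filter.1 hχ').1).2
    apply h1
    simp only [Finset.mem_insert, Finset.mem_singleton] at hχ
    rcases hχ with rfl | rfl | rfl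
    · exact Finset.mem_union_left _ htX
    · exact Finset.mem_union_right _ hθ
    · exact Finset.mem_union_right _ hθ'
  have hcO₁ : O₁.card = 2 := by
    have h1 := hcS
    rw [hSe, Finset.card_union_of_disjoint hdisj, Finset.card_insert_of_notMem (by simp [hnt, hnt']), Finset.card_pair nθ] at h1
    omega
  obtain ⟨u, v, nuv, hO₁e⟩ := Finset.card_eq_two.1 hcO₁
  have huO : u ∈ O₁ := by rw [hO₁e]; simp
  have hvO : v ∈ O₁ := by rw [hO₁e]; simp
  have hu11 := hO11 u (Finset.mem_filter.1 huO).1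
  have hv11 := hO11 v (Finset.mem_filter.1 hvO).1
  have hsplit : ∑ χ ∈ O₁, dg χ ^ 2 + ∑ χ ∈ O₂, dg χ ^ 2 = 5082 := by
    rw [← hsumO, hO₁, hO₂, add_comm]
    exact Finset.sum_filter_add_sum_filter_not O _ _
  rw [hO₁e, Finset.sum_pair nuv] at hsplit
  -- those of degree divisible by 5
  have hO₂55 : ∀ χ ∈ O₂, dg χ = 55 := by
    intro χ hχ
    obtain ⟨h1, h2⟩ := Finset.mem_filter.1 hχ
    have h3 := hO11 χ h1
    have h4 : dg χ ^ 2 ≤ ∑ χ ∈ O, dg χ ^ 2 :=
      Finset.single_le_sum (f := fun χ : IrrCharacter G => dg χ ^ 2) (fun _ _ => Nat.zero_le _) h1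
    rw [hsumO] at h4
    have h5 : 55 ∣ dg χ := Nat.Coprime.mul_dvd_of_dvd_of_dvd (by norm_num) h2 h3
    obtain ⟨k, hk⟩ := h5
    have hp := dg_pos χ
    have hk1 : k = 1 := by
      rw [hk] at h4 hp
      have h6 : k ≠ 0 := by
        rintro rfl
        simp at hp
      have h7 : k < 2 := by
        by_contra h8
        have : 2 ≤ k := by omega
        nlinarith
      omega
    rw [hk, hk1]
  have hsumO₂ : ∑ χ ∈ O₂, dg χ ^ 2 = 3025 * O₂.card := by
    rw [Finset.sum_congr rfl (g := fun _ => 3025) (fun χ hχ => by rw [hO₂55 χ hχ]; norm_num), Finset.sum_const, smul_eq_mul, mul_comm]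
  rw [hsumO₂] at hsplit
  obtain ⟨m₁, hm₁⟩ := hu11
  obtain ⟨m₂, hm₂⟩ := hv11
  have hnum : O₂.card = 1 ∧ ((m₁ = 1 ∧ m₂ = 4) ∨ (m₁ = 4 ∧ m₂ = 1)) := by
    rw [hm₁, hm₂] at hsplit
    have h1 : m₁ < 8 := by
      by_contra h
      have : 8 ≤ m₁ := by omega
      nlinarith
    have h2 : m₂ < 8 := by
      by_contra h
      have : 8 ≤ m₂ := by omega
      nlinarith
    have h3 : O₂.card < 3 := by omega
    refine numeric_m m₁ (Finset.mem_range.2 h1) m₂ (Finset.mem_range.2 h2) O₂.card (Finset.mem_range.2 h3) ?_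
    nlinarith
  obtain ⟨hc2, hmm⟩ := hnum
  obtain ⟨ξ, hξ⟩ := Finset.card_eq_one.1 hc2
  have hξm : ξ ∈ O₂ := by rw [hξ]; simp
  have dξ := hO₂55 ξ hξm
  -- choose the names of the last two
  obtain ⟨ν, μ, dν, dμ, hνμ, hO₁e'⟩ : ∃ ν μ : IrrCharacter G, dg ν = 11 ∧ dg μ = 44 ∧ ν ≠ μ ∧ O₁ = {ν, μ} := by
    rcases hmm with ⟨h1, h2⟩ | ⟨h1, h2⟩
    · exact ⟨u, v, by rw [hm₁, h1], by rw [hm₂, h2], nuv, hO₁e⟩
    · refine ⟨v, u, by rw [hm₂, h2], by rw [hm₁, h1], nuv.symm, ?_⟩
      rw [hO₁e, Finset.pair_comm]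
  have hOe : O = {ν, μ, ξ} := by
    ext χ
    constructor
    · intro hχ
      by_cases h5 : 5 ∣ dg χ
      · have : χ ∈ O₂ := Finset.mem_filter.2 ⟨hχ, h5⟩
        rw [hξ, Finset.mem_singleton] at this
        simp [this]
      · have : χ ∈ O₁ := Finset.mem_filter.2 ⟨hχ, h5⟩
        rw [hO₁e'] at this
        simp only [Finset.mem_insert, Finset.mem_singleton] at this ⊢
        tauto
    · intro hχ
      simp only [Finset.mem_insert, Finset.mem_singleton] at hχ
      rcases hχ with rfl | rfl | rfl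
      · have : χ ∈ O₁ := by rw [hO₁e']; simp
        exact (Finset.mem_filter.1 this).1
      · have : χ ∈ O₁ := by rw [hO₁e']; simp
        exact (Finset.mem_filter.1 this).1
      · exact (Finset.mem_filter.1 hξm).1
  have hνS : ν ∈ S := by
    rw [hSe]
    apply Finset.mem_union_right
    rw [hO₁e']
    simp
  have hμS : μ ∈ S := by
    rw [hSe]
    apply Finset.mem_union_right
    rw [hO₁e']
    simp
  have hSe' : S = {trivChar G, θ, θ', ν, μ} := by
    rw [hSe, hO₁e']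
    ext χ
    simp only [Finset.mem_union, Finset.mem_insert, Finset.mem_singleton]
    tauto
  refine ⟨α, β, γ, κ, θ, θ', ν, μ, ξ, dα, dβ, dγ, dκ, dθ, dθ', dν, dμ, dξ, nαβ, nαγ, nβγ, nθ, ?_, hrelY θ hθ, hrelY θ' hθ', ?_⟩
  · -- the universe
    ext χ
    simp only [Finset.mem_univ, true_iff, Finset.mem_insert, Finset.mem_singleton]
    by_cases hχ : χ ∈ X ∪ Y
    · rcases Finset.mem_union.1 hχ with h | h
      · by_cases h1 : χ = trivChar G
        · exact Or.inl h1
        · have h2 : χ ∈ X.erase (trivChar G) := Finset.mem_erase.2 ⟨h1, h⟩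
          rw [hXe'] at h2
          simp only [Finset.mem_insert, Finset.mem_singleton] at h2
          tauto
      · rw [hYe] at h
        simp only [Finset.mem_insert, Finset.mem_singleton] at h
        tauto
    · have h1 : χ ∈ O := Finset.mem_sdiff.2 ⟨Finset.mem_univ _, hχ⟩
      rw [hOe] at h1
      simp only [Finset.mem_insert, Finset.mem_singleton] at h1
      tauto
  · -- the relation at 5
    intro g hg
    have h1 := hSrel g hg
    have nθν : θ ≠ ν := fun h => by rw [h] at dθ; omega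
    have nθμ : θ ≠ μ := fun h => by rw [h] at dθ; omega
    have nθ'ν : θ' ≠ ν := fun h => by rw [h] at dθ'; omega
    have nθ'μ : θ' ≠ μ := fun h => by rw [h] at dθ'; omega
    have ntν : trivChar G ≠ ν := fun h => by rw [← h, dg_triv] at dν; omega
    have ntμ : trivChar G ≠ μ := fun h => by rw [← h, dg_triv] at dμ; omega
    rw [hSe', Finset.sum_insert (by simp [hnt, hnt', ntν, ntμ]), Finset.sum_insert (by simp [nθ, nθν, nθμ]),
      Finset.sum_insert (by simp [nθ'ν, nθ'μ]), Finset.sum_pair hνμ, dg_triv, dθ, dθ', dν, dμ, coe_trivChar] at h1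
    have s1 : sg5 1 = 1 := by decide
    have s16 : sg5 16 = 1 := by decide
    have s11 : sg5 11 = 1 := by decide
    have s44 : sg5 44 = -1 := by decide
    rw [s1, s16, s11, s44] at h1
    push_cast at h1
    linear_combination h1

end Cfsg.Agent.Lib.M11Ord
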