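import Mathlib
import Cfsg.Agent.Lib.M11Ord.Rows

/-!
# Simple groups of order 7920: the list of degrees
-/

set_option autoImplicit false
set_option linter.unusedSectionVars false

namespace Cfsg.Agent.Lib.M11Ord

open Cfsg Subgroup Finset
open Cfsg.Agent.Lib.Blocks.Principal (trivChar coe_trivChar)

universe u

variable {G : Type u} [Group G] [Finite G] [IsSimpleGroup G]

attribute [local instance] Classical.propDecidable

namespace Rows

variable {α β γ κ θ θ' ν μ ξ : IrrCharacter G} (R : Rows α β γ κ θ θ' ν μ ξ)

include R

theorem mem_all (χ : IrrCharacter G) : χ = trivChar G ∨ χ = α ∨ χ = β ∨ χ = γ ∨ χ = κ ∨ χ = θ ∨ χ = θ' ∨ χ = ν ∨ χ = μ ∨ χ = ξ := by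
  have h := Finset.mem_univ χ
  rw [R.univ_eq] at h
  simpa only [Finset.mem_insert, Finset.mem_singleton] using h

theorem degree_fiber (n : ℕ) :
    (univ.filter (fun χ : IrrCharacter G => dg χ = n)).card =
      (if n = 1 ∨ n = 11 ∨ n = 44 ∨ n = 45 ∨ n = 55 then 1 else if n = 10 then 3 else if n = 16 then 2 else 0) := by
  have dt : dg (trivChar G) = 1 := dg_triv
  have dα := R.dα
  have dβ := R.dβ
  have dγ := R.dγ
  have dκ := R.dκ
  have dθ := R.dθ
  have dθ' := R.dθ'
  have dν := R.dν
  have dμ := R.dμ
  have dξ := R.dξ
  have hmem := R.mem_all
  by_cases h1 : n = 1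
  · subst h1
    have : univ.filter (fun χ : IrrCharacter G => dg χ = 1) = {trivChar G} := by
      ext χ
      simp only [Finset.mem_filter, Finset.mem_univ, true_and, Finset.mem_singleton]
      constructor
      · intro h
        rcases hmem χ with r | r | r | r | r | r | r | r | r | r <;> rw [r] at h <;> first | exact r | omega
      · rintro rfl
        exact dt
    rw [this]
    simp
  by_cases h11 : n = 11
  · subst h11
    have : univ.filter (fun χ : IrrCharacter G => dg χ = 11) = {ν} := by
      ext χ
      simp only [Finset.mem_filter, Finset.mem_univ, true_and, Finset.mem_singleton]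
      constructor
      · intro h
        rcases hmem χ with r | r | r | r | r | r | r | r | r | r <;> rw [r] at h <;> first | exact r | omega
      · rintro rfl
        exact dν
    rw [this]
    simp
  by_cases h44 : n = 44
  · subst h44
    have : univ.filter (fun χ : IrrCharacter G => dg χ = 44) = {μ} := by
      ext χ
      simp only [Finset.mem_filter, Finset.mem_univ, true_and, Finset.mem_singleton]
      constructor
      · intro h
        rcases hmem χ with r | r | r | r | r | r | r | r | r | r <;> rw [r] at h <;> first | exact r | omega
      · rintro rfl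
        exact dμ
    rw [this]
    simp
  by_cases h45 : n = 45
  · subst h45
    have : univ.filter (fun χ : IrrCharacter G => dg χ = 45) = {κ} := by
      ext χ
      simp only [Finset.mem_filter, Finset.mem_univ, true_and, Finset.mem_singleton]
      constructor
      · intro h
        rcases hmem χ with r | r | r | r | r | r | r | r | r | r <;> rw [r] at h <;> first | exact r | omega
      · rintro rfl
        exact dκ
    rw [this]
    simp
  by_cases h55 : n = 55
  · subst h55
    have : univ.filter (fun χ : IrrCharacter G => dg χ = 55) = {ξ} := by
      ext χ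
      simp only [Finset.mem_filter, Finset.mem_univ, true_and, Finset.mem_singleton]
      constructor
      · intro h
        rcases hmem χ with r | r | r | r | r | r | r | r | r | r <;> rw [r] at h <;> first | exact r | omega
      · rintro rfl
        exact dξ
    rw [this]
    simp
  by_cases h10 : n = 10
  · subst h10
    have : univ.filter (fun χ : IrrCharacter G => dg χ = 10) = {α, β, γ} := by
      ext χ
      simp only [Finset.mem_filter, Finset.mem_univ, true_and, Finset.mem_insert, Finset.mem_singleton]
      constructor
      · intro h
        rcases hmem χ with r | r | r | r | r | r | r | r | r | r <;> rw [r] at h <;>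
          first | exact Or.inl r | exact Or.inr (Or.inl r) | exact Or.inr (Or.inr r) | omega
      · rintro (rfl | rfl | rfl)
        · exact dα
        · exact dβ
        · exact dγ
    rw [this, Finset.card_insert_of_notMem (by simp [R.nαβ, R.nαγ]), Finset.card_pair R.nβγ]
    simp
  by_cases h16 : n = 16
  · subst h16
    have : univ.filter (fun χ : IrrCharacter G => dg χ = 16) = {θ, θ'} := by
      ext χ
      simp only [Finset.mem_filter, Finset.mem_univ, true_and, Finset.mem_insert, Finset.mem_singleton]
      constructor
      · intro h
        rcases hmem χ with r | r | r | r | r | r | r | r | r | r <;> rw [r] at h <;>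
          first | exact Or.inl r | exact Or.inr r | omega
      · rintro (rfl | rfl)
        · exact dθ
        · exact dθ'
    rw [this, Finset.card_pair R.nθ]
    simp
  · have : univ.filter (fun χ : IrrCharacter G => dg χ = n) = ∅ := by
      ext χ
      simp only [Finset.mem_filter, Finset.mem_univ, true_and, Finset.notMem_empty, iff_false]
      intro h
      rcases hmem χ with r | r | r | r | r | r | r | r | r | r <;> rw [r] at h <;> omega
    rw [this, if_neg (by tauto), if_neg h10, if_neg h16]
    simp

theorem card_irr : (univ : Finset (IrrCharacter G)).card = 10 := by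
  have hmaps : Set.MapsTo (fun χ : IrrCharacter G => dg χ) (univ : Finset (IrrCharacter G))
      (({1, 10, 11, 16, 44, 45, 55} : Finset ℕ) : Set ℕ) := by
    intro χ _
    have hmem := R.mem_all χ
    simp only [Finset.coe_insert, Finset.coe_singleton, Set.mem_insert_iff, Set.mem_singleton_iff]
    rcases hmem with r | r | r | r | r | r | r | r | r | r <;> rw [r]
    · simp [dg_triv]
    · simp [R.dα]
    · simp [R.dβ]
    · simp [R.dγ]
    · simp [R.dκ]
    · simp [R.dθ]
    · simp [R.dθ']
    · simp [R.dν]
    · simp [R.dμ]
    · simp [R.dξ]
  rw [Finset.card_eq_sum_card_fiberwise hmaps]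
  simp only [R.degree_fiber]
  decide

end Rows

/-- The degrees of the irreducible characters of a simple group of order 7920. -/
theorem degrees_main (hG : Nat.card G = 7920) :
    Nat.card (IrrCharacter G) = 10 ∧ ∀ n : ℕ, Nat.card {χ : IrrCharacter G // charDegree (χ : G → ℂ) = n} =
      (if n = 1 ∨ n = 11 ∨ n = 44 ∨ n = 45 ∨ n = 55 then 1 else if n = 10 then 3 else if n = 16 then 2 else 0) := by
  obtain ⟨α, β, γ, κ, θ, θ', ν, μ, ξ, R⟩ := exists_rows hG
  constructor
  · rw [Nat.card_eq_fintype_card, ← Finset.card_univ]
    exact R.card_irr
  · intro n
    rw [← R.degree_fiber n, Nat.card_eq_fintype_card, Fintype.card_subtype]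
    rfl

end Cfsg.Agent.Lib.M11Ord
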