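import Mathlib
import Cfsg.Agent.Lib.M11Ord.Degrees
import Cfsg.Agent.Lib.Char.RealOver2
import Cfsg.Agent.Lib.Char.CompleteCor

/-!
# Simple groups of order 7920: columns of the character table
-/

set_option autoImplicit false
set_option linter.unusedSectionVars false

namespace Cfsg.Agent.Lib.M11Ord

open Cfsg Subgroup Finset Complex
open Cfsg.Agent.Lib.Blocks.Principal (trivChar coe_trivChar)
open scoped ComplexConjugate

universe u

variable {G : Type u} [Group G] [Finite G] [IsSimpleGroup G]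

attribute [local instance] Classical.propDecidable

lemma eight_zero {a b c d e f g h : ℝ} (ha : 0 ≤ a) (hb : 0 ≤ b) (hc : 0 ≤ c) (hd : 0 ≤ d) (he : 0 ≤ e) (hf : 0 ≤ f)
    (hg : 0 ≤ g) (hh : 0 ≤ h) (hs : 0 = a + b + c + d + e + f + 3 * g + 3 * h) :
    a = 0 ∧ b = 0 ∧ c = 0 ∧ d = 0 ∧ e = 0 ∧ f = 0 ∧ g = 0 ∧ h = 0 := by
  refine ⟨?_, ?_, ?_, ?_, ?_, ?_, ?_, ?_⟩ <;> linarith

/-- Real lower bound for the column norm. -/
lemma bound3 (a b c e : ℂ) (f : ℝ) (hs : a + b + c = 1 - (f : ℂ)) (N : ℝ)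
    (hN : N = 1 + normSq a + normSq b + normSq c + 2 * f ^ 2 + normSq e + 2 * normSq (1 + e + 2 * (f : ℂ))) :
    5 * f ^ 2 + 2 * f + 2 ≤ N ∧ (N = 5 * f ^ 2 + 2 * f + 2 →
      a = (((1 - f) / 3 : ℝ) : ℂ) ∧ b = (((1 - f) / 3 : ℝ) : ℂ) ∧ c = (((1 - f) / 3 : ℝ) : ℂ) ∧
        e = ((-(2 / 3 * (1 + 2 * f)) : ℝ) : ℂ)) := by
  have hre : a.re + b.re + c.re = 1 - f := by
    have := congrArg Complex.re hs
    simpa using this
  have him : a.im + b.im + c.im = 0 := by
    have := congrArg Complex.im hs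
    simpa using this
  have hcr : c.re = 1 - f - a.re - b.re := by linarith
  have hci : c.im = - a.im - b.im := by linarith
  have hid : N - (5 * f ^ 2 + 2 * f + 2) = (a.re - (1 - f) / 3) ^ 2 + (b.re - (1 - f) / 3) ^ 2 + (c.re - (1 - f) / 3) ^ 2 +
      a.im ^ 2 + b.im ^ 2 + c.im ^ 2 + 3 * (e.re + 2 / 3 * (1 + 2 * f)) ^ 2 + 3 * e.im ^ 2 := by
    rw [hN]
    simp only [normSq_apply, add_re, add_im, one_re, one_im, mul_re, mul_im, ofReal_re, ofReal_im, re_ofNat, im_ofNat]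
    rw [hcr, hci]
    ring
  have hnn : 0 ≤ N - (5 * f ^ 2 + 2 * f + 2) := by
    rw [hid]
    positivity
  refine ⟨by linarith, fun h => ?_⟩
  rw [h, sub_self] at hid
  obtain ⟨h1, h2, h3, h4, h5, h6, h7, h8⟩ := eight_zero (sq_nonneg (a.re - (1 - f) / 3)) (sq_nonneg (b.re - (1 - f) / 3))
    (sq_nonneg (c.re - (1 - f) / 3)) (sq_nonneg a.im) (sq_nonneg b.im) (sq_nonneg c.im)
    (sq_nonneg (e.re + 2 / 3 * (1 + 2 * f))) (sq_nonneg e.im) hid
  have h1' := pow_eq_zero_iff (two_ne_zero) |>.1 h1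
  have h2' := pow_eq_zero_iff (two_ne_zero) |>.1 h2
  have h3' := pow_eq_zero_iff (two_ne_zero) |>.1 h3
  have h4' := pow_eq_zero_iff (two_ne_zero) |>.1 h4
  have h5' := pow_eq_zero_iff (two_ne_zero) |>.1 h5
  have h6' := pow_eq_zero_iff (two_ne_zero) |>.1 h6
  have h7' := pow_eq_zero_iff (two_ne_zero) |>.1 h7
  have h8' := pow_eq_zero_iff (two_ne_zero) |>.1 h8
  refine ⟨Complex.ext ?_ ?_, Complex.ext ?_ ?_, Complex.ext ?_ ?_, Complex.ext ?_ ?_⟩ <;>
    simp only [ofReal_re, ofReal_im] <;> linarith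

namespace Rows

variable {α β γ κ θ θ' ν μ ξ : IrrCharacter G} (R : Rows α β γ κ θ θ' ν μ ξ)

include R

theorem sum_univ (F : IrrCharacter G → ℂ) : ∑ χ, F χ = F (trivChar G) + F α + F β + F γ + F κ + F θ + F θ' + F ν + F μ + F ξ := by
  have hne : ∀ a b : IrrCharacter G, dg a ≠ dg b → a ≠ b := fun a b h e => h (by rw [e])
  have dt : dg (trivChar G) = 1 := dg_triv
  have dα := R.dα
  have dβ := R.dβ
  have dγ := R.dγ
  have dκ := R.dκ
  have dθ := R.dθ
  have dθ' := R.dθ'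
  have dν := R.dν
  have dμ := R.dμ
  have dξ := R.dξ
  have nαβ := R.nαβ
  have nαγ := R.nαγ
  have nβγ := R.nβγ
  have nθ := R.nθ
  rw [R.univ_eq, Finset.sum_insert, Finset.sum_insert, Finset.sum_insert, Finset.sum_insert, Finset.sum_insert,
    Finset.sum_insert, Finset.sum_insert, Finset.sum_insert, Finset.sum_pair]
  · ring
  · exact hne _ _ (by omega)
  all_goals
    simp only [Finset.mem_insert, Finset.mem_singleton, not_or]
    and_intros
    all_goals first | exact hne _ _ (by omega) | assumption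

/-- The norm of a column. -/
theorem col_norm (g : G) : (Nat.card (centralizer ({g} : Set G)) : ℝ) = 1 + normSq ((α : G → ℂ) g) + normSq ((β : G → ℂ) g) +
    normSq ((γ : G → ℂ) g) + normSq ((κ : G → ℂ) g) + normSq ((θ : G → ℂ) g) + normSq ((θ' : G → ℂ) g) + normSq ((ν : G → ℂ) g) +
    normSq ((μ : G → ℂ) g) + normSq ((ξ : G → ℂ) g) := by
  haveI : Fintype G := Fintype.ofFinite G
  have h1 := Cfsg.Agent.Lib.Char.CompleteCor.column_orth_conj (G := G) (IsConj.refl g)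
  rw [R.sum_univ (fun χ => (χ : G → ℂ) g * conj ((χ : G → ℂ) g))] at h1
  simp only [Complex.mul_conj, coe_trivChar] at h1
  have h2 : ((Nat.card (centralizer ({g} : Set G)) : ℝ) : ℂ) = (((1 + normSq ((α : G → ℂ) g) + normSq ((β : G → ℂ) g) +
    normSq ((γ : G → ℂ) g) + normSq ((κ : G → ℂ) g) + normSq ((θ : G → ℂ) g) + normSq ((θ' : G → ℂ) g) + normSq ((ν : G → ℂ) g) +
    normSq ((μ : G → ℂ) g) + normSq ((ξ : G → ℂ) g) : ℝ)) : ℂ) := by
    push_cast
    rw [← h1]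
    simp
  exact_mod_cast h2

/-- Orthogonality with the first column. -/
theorem col_deg {g : G} (hg : g ≠ 1) : 1 + 10 * (α : G → ℂ) g + 10 * (β : G → ℂ) g + 10 * (γ : G → ℂ) g + 45 * (κ : G → ℂ) g +
    16 * (θ : G → ℂ) g + 16 * (θ' : G → ℂ) g + 11 * (ν : G → ℂ) g + 44 * (μ : G → ℂ) g + 55 * (ξ : G → ℂ) g = 0 := by
  haveI : Fintype G := Fintype.ofFinite G
  have h1 := Cfsg.Agent.Lib.Char.CompleteCor.column_orth_not_conj (G := G) (g := g) (h := 1)
    (fun h => hg (isConj_one_right.mp h.symm))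
  rw [R.sum_univ (fun χ => (χ : G → ℂ) g * conj ((χ : G → ℂ) 1))] at h1
  simp only [dg_cast, Complex.conj_natCast, coe_trivChar, dg_triv, R.dα, R.dβ, R.dγ, R.dκ, R.dθ, R.dθ', R.dν, R.dμ, R.dξ] at h1
  push_cast at h1
  linear_combination h1

/-- Elements of order 5 do not commute with involutions. -/
theorem hno (hG : Nat.card G = 7920) {z y : G} (hz : orderOf z = 5) (hy : orderOf y = 2) (hc : y * z = z * y) : False :=
  no_invol_A hG R.dα R.dβ R.dγ R.dκ R.dθ R.r11 hz hy hc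

/-- The order of the centralizer of an element whose order is prime to 5 and 11. -/
theorem cen_dvd (hG : Nat.card G = 7920) {g : G} (hg : g ≠ 1) (h5 : ¬ 5 ∣ orderOf g) (h11 : ¬ 11 ∣ orderOf g) :
    Nat.card (centralizer ({g} : Set G)) ∣ 144 := by
  set C := centralizer ({g} : Set G) with hC
  have hmem : ∀ y : C, (y : G) * g = g * y := fun y => (Subgroup.mem_centralizer_singleton_iff.1 y.2)
  have h5C : ¬ 5 ∣ Nat.card C := by
    intro h
    haveI : Fact (Nat.Prime 5) := ⟨by norm_num⟩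
    obtain ⟨z, hz⟩ := exists_prime_orderOf_dvd_card' (G := C) 5 h
    have hz' : orderOf (z : G) = 5 := by rw [Subgroup.orderOf_coe, hz]
    have h1 := (five_data hG (fun h1 h2 h3 => R.hno hG h1 h2 h3) hz').1 g (hmem z).symm
    have h2 := orderOf_dvd_of_mem_zpowers h1
    rw [hz'] at h2
    rcases (Nat.dvd_prime (by norm_num)).1 h2 with h3 | h3
    · exact hg (orderOf_eq_one_iff.1 h3)
    · exact h5 (by rw [h3])
  have h11C : ¬ 11 ∣ Nat.card C := by
    intro h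
    haveI : Fact (Nat.Prime 11) := ⟨by norm_num⟩
    obtain ⟨z, hz⟩ := exists_prime_orderOf_dvd_card' (G := C) 11 h
    have hz' : orderOf (z : G) = 11 := by rw [Subgroup.orderOf_coe, hz]
    have h1 := eleven_self_cen hG hz' (hmem z).symm
    have h2 := orderOf_dvd_of_mem_zpowers h1
    rw [hz'] at h2
    rcases (Nat.dvd_prime (by norm_num)).1 h2 with h3 | h3
    · exact hg (orderOf_eq_one_iff.1 h3)
    · exact h11 (by rw [h3])
  have h1 : Nat.card C ∣ 5 * (11 * 144) := by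
    have := Subgroup.card_subgroup_dvd_card C
    rwa [hG] at this
  have h3 : Nat.Coprime (Nat.card C) 5 := ((Nat.Prime.coprime_iff_not_dvd (by norm_num)).2 h5C).symm
  have h4 : Nat.Coprime (Nat.card C) 11 := ((Nat.Prime.coprime_iff_not_dvd (by norm_num)).2 h11C).symm
  exact h4.dvd_of_dvd_mul_left (h3.dvd_of_dvd_mul_left h1)

/-- Reality of the characters of degree 16. -/
theorem theta_real {g : G} (hg : ¬ 11 ∣ orderOf g) : conj ((θ : G → ℂ) g) = (θ : G → ℂ) g := by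
  haveI : Fintype G := Fintype.ofFinite G
  let Θ : IrrCharacter G := ⟨_, Cfsg.Agent.Lib.Char.RealOver.isIrr_conj θ.2⟩
  have hΘg : (Θ : G → ℂ) g = conj ((θ : G → ℂ) g) := rfl
  have hΘ1 : (Θ : G → ℂ) 1 = conj ((θ : G → ℂ) 1) := rfl
  have hd : dg Θ = 16 := by
    have h1 := dg_cast Θ
    rw [hΘ1, dg_cast θ, R.dθ] at h1
    have h2 : ((dg Θ : ℕ) : ℂ) = ((16 : ℕ) : ℂ) := by
      rw [← h1, Complex.conj_natCast]
    exact_mod_cast h2
  have dt : dg (trivChar G) = 1 := dg_triv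
  have dα := R.dα
  have dβ := R.dβ
  have dγ := R.dγ
  have dκ := R.dκ
  have dν := R.dν
  have dμ := R.dμ
  have dξ := R.dξ
  rw [← hΘg]
  rcases R.mem_all Θ with r | r | r | r | r | r | r | r | r | r
  · rw [r] at hd; omega
  · rw [r] at hd; omega
  · rw [r] at hd; omega
  · rw [r] at hd; omega
  · rw [r] at hd; omega
  · rw [r]
  · rw [r, R.r11' g hg, R.r11 g hg]
  · rw [r] at hd; omega
  · rw [r] at hd; omega
  · rw [r] at hd; omega

/-- The general form of a column. -/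
theorem col_good {g : G} (hg : g ≠ 1) (h5 : ¬ 5 ∣ orderOf g) (h11 : ¬ 11 ∣ orderOf g) :
    (θ' : G → ℂ) g = (θ : G → ℂ) g ∧
    (κ : G → ℂ) g = (θ : G → ℂ) g - 1 + ((α : G → ℂ) g + (β : G → ℂ) g + (γ : G → ℂ) g) ∧
    (μ : G → ℂ) g = 1 + (ν : G → ℂ) g + 2 * (θ : G → ℂ) g ∧
    (ξ : G → ℂ) g = -(((α : G → ℂ) g + (β : G → ℂ) g + (γ : G → ℂ) g) + (ν : G → ℂ) g + 3 * (θ : G → ℂ) g) := by
  have h1 := R.r11 g h11
  have h2 := R.r11' g h11
  have h3 := R.r5 g h5
  have h4 := R.col_deg hg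
  have e1 : (θ' : G → ℂ) g = (θ : G → ℂ) g := by rw [h1, h2]
  have e2 : (κ : G → ℂ) g = (θ : G → ℂ) g - 1 + ((α : G → ℂ) g + (β : G → ℂ) g + (γ : G → ℂ) g) := by
    linear_combination -h1
  have e3 : (μ : G → ℂ) g = 1 + (ν : G → ℂ) g + 2 * (θ : G → ℂ) g := by
    rw [e1] at h3
    linear_combination -h3
  refine ⟨e1, e2, e3, ?_⟩
  rw [e1, e2, e3] at h4
  have : (55 : ℂ) ≠ 0 := by norm_num
  apply mul_left_cancel₀ this
  linear_combination h4

end Rows

end Cfsg.Agent.Lib.M11Ord
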