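import Mathlib
import Cfsg.Agent.Lib.M11Ord.Col
import Cfsg.Agent.Lib.Blocks.TI9B

/-!
# Simple groups of order 7920: the column of an element of order 3
-/

set_option autoImplicit false
set_option linter.unusedSectionVars false

namespace Cfsg.Agent.Lib.M11Ord

open Cfsg Subgroup Finset Complex
open Cfsg.Agent.Lib.Blocks.Principal (trivChar coe_trivChar)
open scoped ComplexConjugate

universe u

variable {G : Type u} [Group G] [Finite G] [IsSimpleGroup G]

set_option maxRecDepth 100000 in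
set_option synthInstance.maxSize 5000 in
set_option synthInstance.maxHeartbeats 200000 in
/-- The numerics of the column of an element of order 3. -/
lemma numeric3 : ∀ m ∈ Finset.range 9, ∀ n ∈ Finset.range 145, n ∣ 144 → m ≠ 0 →
    5 * (16 - 3 * (m : ℤ)) ^ 2 + 2 * (16 - 3 * (m : ℤ)) + 2 ≤ n →
    (2 ∣ n → 2 ∣ m) → (4 ∣ n → 4 ∣ m) → (16 ∣ n → 16 ∣ (16 - 2 * m)) → (m = 6 ∧ n = 18) ∨ (m = 5 ∧ n = 9) := by
  decide

attribute [local instance] Classical.propDecidable

namespace Rows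

variable {α β γ κ θ θ' ν μ ξ : IrrCharacter G} (R : Rows α β γ κ θ θ' ν μ ξ)

include R

/-- Divisibility of the multiplicities. -/
theorem two_pow_dvd (hG : Nat.card G = 7920) {x : G} (hx : orderOf x = 3) {m₁ m₂ : ℕ} (hm₁ : (16 : ℂ) + 2 * (θ : G → ℂ) x = 3 * m₁)
    (hm₂ : (16 : ℂ) - (θ : G → ℂ) x = 3 * m₂) (k : ℕ) (hk : 2 ^ k ∣ Nat.card (centralizer ({x} : Set G))) :
    2 ^ k ∣ m₁ ∧ 2 ^ k ∣ m₂ := by
  classical
  haveI : Fact (Nat.Prime 2) := ⟨Nat.prime_two⟩
  obtain ⟨K, hK⟩ := Sylow.exists_subgroup_card_pow_prime 2 hk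
  let S : Subgroup G := K.map (centralizer ({x} : Set G)).subtype
  have hcS : Nat.card S = 2 ^ k := by
    rw [← hK]
    exact Nat.card_congr (Subgroup.equivMapOfInjective K _ (centralizer ({x} : Set G)).subtype_injective).symm.toEquiv
  haveI : Fintype S := Fintype.ofFinite _
  have hSC : ∀ s ∈ S, x * s = s * x := by
    rintro _ ⟨a, -, rfl⟩
    exact (Subgroup.mem_centralizer_singleton_iff.1 a.2).symm
  have hord : ∀ s ∈ S, s ≠ 1 → 2 ∣ orderOf s := by
    intro s hs hs1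
    have h1 : orderOf s ∣ 2 ^ k := by
      rw [← hcS]
      exact Subgroup.orderOf_dvd_natCard S hs
    obtain ⟨j, -, hj⟩ := (Nat.dvd_prime_pow Nat.prime_two).1 h1
    have hj0 : j ≠ 0 := by
      rintro rfl
      exact hs1 (orderOf_eq_one_iff.1 (by simpa using hj))
    rw [hj]
    exact dvd_pow_self 2 hj0
  have hv : ∀ g : G, 2 ∣ orderOf g → (θ : G → ℂ) g = 0 := by
    intro g hg
    exact vanish_of_dvd θ Nat.prime_two (n := 4) (by rw [hG]; norm_num) (by rw [hG]; norm_num) (by rw [R.dθ]; norm_num) g hg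
  have hcop : ∀ s ∈ S, Nat.Coprime 3 (orderOf s) := by
    intro s hs
    have h1 : orderOf s ∣ 2 ^ k := by
      rw [← hcS]
      exact Subgroup.orderOf_dvd_natCard S hs
    exact Nat.Coprime.coprime_dvd_right h1 (Nat.Coprime.pow_right k (by norm_num))
  have hreal : (θ : G → ℂ) x⁻¹ = (θ : G → ℂ) x := by
    rw [Cfsg.Agent.Lib.Char.Values.IsCharacter.inv (isChar θ)]
    exact R.theta_real (by rw [hx]; norm_num)
  obtain ⟨n₁, n₂, h1, h2⟩ := mult_three (isChar θ) hx (S := S) hSC (fun s hs hs1 => hv s (hord s hs hs1))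
    (fun s hs hs1 => hv _ (by
      rw [Commute.orderOf_mul_eq_mul_orderOf_of_coprime (hSC s hs) (by rw [hx]; exact hcop s hs)]
      exact Dvd.dvd.mul_left (hord s hs hs1) _))
    (fun s hs hs1 => hv _ (by
      have h3 : Commute x⁻¹ s := (show Commute x s from hSC s hs).inv_left
      rw [h3.orderOf_mul_eq_mul_orderOf_of_coprime (by rw [orderOf_inv, hx]; exact hcop s hs)]
      exact Dvd.dvd.mul_left (hord s hs hs1) _))
    hreal
  rw [dg_cast, R.dθ, hcS] at h1 h2
  push_cast at h1 h2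
  constructor
  · have h3 : ((3 * m₁ : ℕ) : ℂ) = ((3 * (2 ^ k * n₁) : ℕ) : ℂ) := by
      push_cast
      rw [← hm₁, h1]
      ring
    have h4 : 3 * m₁ = 3 * (2 ^ k * n₁) := by exact_mod_cast h3
    have h5 : m₁ = 2 ^ k * n₁ := by omega
    exact ⟨n₁, h5⟩
  · have h3 : ((3 * m₂ : ℕ) : ℂ) = ((3 * (2 ^ k * n₂) : ℕ) : ℂ) := by
      push_cast
      rw [← hm₂, h2]
      ring
    have h4 : 3 * m₂ = 3 * (2 ^ k * n₂) := by exact_mod_cast h3
    have h5 : m₂ = 2 ^ k * n₂ := by omega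
    exact ⟨n₂, h5⟩

/-- **The column of an element of order 3.** -/
theorem three_col (hG : Nat.card G = 7920) {x : G} (hx : orderOf x = 3) :
    Nat.card (centralizer ({x} : Set G)) = 18 ∧ (α : G → ℂ) x = 1 ∧ (β : G → ℂ) x = 1 ∧ (γ : G → ℂ) x = 1 ∧
      (κ : G → ℂ) x = 0 ∧ (θ : G → ℂ) x = -2 ∧ (θ' : G → ℂ) x = -2 ∧ (ν : G → ℂ) x = 2 ∧ (μ : G → ℂ) x = -1 ∧
      (ξ : G → ℂ) x = 1 := by
  classical
  have hx1 : x ≠ 1 := by
    rintro rfl
    simp at hx
  have h5 : ¬ 5 ∣ orderOf x := by rw [hx]; norm_num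
  have h11 : ¬ 11 ∣ orderOf x := by rw [hx]; norm_num
  obtain ⟨e1, e2, e3, e4⟩ := R.col_good hx1 h5 h11
  have hκ : (κ : G → ℂ) x = 0 :=
    vanish_of_dvd κ Nat.prime_three (n := 2) (by rw [hG]; norm_num) (by rw [hG]; norm_num) (by rw [R.dκ]; norm_num) x (by rw [hx])
  have hreal : (θ : G → ℂ) x⁻¹ = (θ : G → ℂ) x := by
    rw [Cfsg.Agent.Lib.Char.Values.IsCharacter.inv (isChar θ)]
    exact R.theta_real h11
  haveI : Fintype (⊥ : Subgroup G) := Fintype.ofFinite _
  obtain ⟨m₁, m₂, hm₁, hm₂⟩ := mult_three (isChar θ) hx (S := (⊥ : Subgroup G))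
    (fun s hs => by rw [Subgroup.mem_bot.1 hs]; simp) (fun s hs hs1 => absurd (Subgroup.mem_bot.1 hs) hs1)
    (fun s hs hs1 => absurd (Subgroup.mem_bot.1 hs) hs1) (fun s hs hs1 => absurd (Subgroup.mem_bot.1 hs) hs1) hreal
  rw [dg_cast, R.dθ, Subgroup.card_bot] at hm₁ hm₂
  push_cast at hm₁ hm₂
  simp only [mul_one] at hm₁ hm₂
  -- the value of `θ` at `x` is an integer
  set f : ℝ := 16 - 3 * (m₂ : ℝ) with hf
  have hfv : (θ : G → ℂ) x = (f : ℂ) := by
    rw [hf]
    push_cast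
    linear_combination -hm₂
  have hm₁₂ : m₁ = 16 - 2 * m₂ ∧ 2 * m₂ ≤ 16 := by
    have h1 : ((m₁ + 2 * m₂ : ℕ) : ℂ) = ((16 : ℕ) : ℂ) := by
      push_cast
      have h3 : (3 : ℂ) ≠ 0 := by norm_num
      apply mul_left_cancel₀ h3
      linear_combination -hm₁ - 2 * hm₂
    have h2 : m₁ + 2 * m₂ = 16 := by exact_mod_cast h1
    omega
  have hm9 : m₂ < 9 := by omega
  have hm0 : m₂ ≠ 0 := by
    rintro rfl
    have h1 : (θ : G → ℂ) x = (θ : G → ℂ) 1 := by
      rw [dg_cast, R.dθ]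
      push_cast
      push_cast at hm₂
      linear_combination -hm₂
    have hθt : θ ≠ trivChar G := by
      intro h
      have := R.dθ
      rw [h, dg_triv] at this
      omega
    exact hx1 (Cfsg.Agent.Lib.Blocks.TI9.eq_one_of_value_eq_degree hθt h1)
  set n := Nat.card (centralizer ({x} : Set G)) with hn
  have hn144 : n ∣ 144 := R.cen_dvd hG hx1 h5 h11
  have hn145 : n < 145 := Nat.lt_succ_of_le (Nat.le_of_dvd (by norm_num) hn144)
  -- the norm
  have hN := R.col_norm x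
  rw [← hn, hκ, e1, hfv, e3, e4, hfv] at hN
  set a := (α : G → ℂ) x with ha
  set b := (β : G → ℂ) x with hb
  set c := (γ : G → ℂ) x with hc
  set e := (ν : G → ℂ) x with he
  have hs : a + b + c = 1 - (f : ℂ) := by
    rw [hfv] at e2
    rw [hκ] at e2
    linear_combination -e2
  have hnormf : normSq (f : ℂ) = f ^ 2 := by
    rw [Complex.normSq_ofReal]
    ring
  have hξe : -(a + b + c + e + 3 * (f : ℂ)) = -(1 + e + 2 * (f : ℂ)) := by
    rw [hs]
    ring
  have hnormneg : normSq (-(1 + e + 2 * (f : ℂ))) = normSq (1 + e + 2 * (f : ℂ)) := Complex.normSq_neg _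
  rw [hξe, hnormneg, hnormf, map_zero] at hN
  have hN' : (n : ℝ) = 1 + normSq a + normSq b + normSq c + 2 * f ^ 2 + normSq e + 2 * normSq (1 + e + 2 * (f : ℂ)) := by
    rw [hN]
    ring
  obtain ⟨hb1, hb2⟩ := bound3 a b c e f hs n hN'
  -- the numerics
  have hLZ : 5 * (16 - 3 * (m₂ : ℤ)) ^ 2 + 2 * (16 - 3 * (m₂ : ℤ)) + 2 ≤ (n : ℤ) := by
    have h1 : ((5 * (16 - 3 * (m₂ : ℤ)) ^ 2 + 2 * (16 - 3 * (m₂ : ℤ)) + 2 : ℤ) : ℝ) ≤ ((n : ℤ) : ℝ) := by
      push_cast
      rw [hf] at hb1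
      linarith
    exact_mod_cast h1
  have hdv := R.two_pow_dvd hG hx hm₁ hm₂
  have hnum := numeric3 m₂ (Finset.mem_range.2 hm9) n (Finset.mem_range.2 hn145) hn144 hm0 hLZ
    (fun h => by
      have := (hdv 1 (by simpa using h)).2
      simpa using this)
    (fun h => by
      have := (hdv 2 (by simpa using h)).2
      simpa using this)
    (fun h => by
      have := (hdv 4 (by simpa using h)).1
      rw [hm₁₂.1] at this
      simpa using this)
  rcases hnum with ⟨hm6, hn18⟩ | ⟨hm5, hn9⟩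
  · -- the main case
    have hf2 : f = -2 := by
      rw [hf, hm6]
      norm_num
    have hE : (n : ℝ) = 5 * f ^ 2 + 2 * f + 2 := by
      rw [hn18, hf2]
      norm_num
    obtain ⟨h1, h2, h3, h4⟩ := hb2 hE
    have hv1 : a = 1 := by
      rw [h1, hf2]
      norm_num
    have hv2 : b = 1 := by
      rw [h2, hf2]
      norm_num
    have hv3 : c = 1 := by
      rw [h3, hf2]
      norm_num
    have hv4 : e = 2 := by
      rw [h4, hf2]
      norm_num
    have hfc : (f : ℂ) = -2 := by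
      rw [hf2]
      norm_num
    refine ⟨hn18, hv1, hv2, hv3, hκ, ?_, ?_, hv4, ?_, ?_⟩
    · rw [hfv, hfc]
    · rw [e1, hfv, hfc]
    · rw [e3, hfv, hfc, hv4]
      norm_num
    · rw [e4, hfv, hfc, hv1, hv2, hv3, hv4]
      norm_num
  · -- the case of a value 0 on a character of degree 10
    exfalso
    have hf1 : f = 1 := by
      rw [hf, hm5]
      norm_num
    have hE : (n : ℝ) = 5 * f ^ 2 + 2 * f + 2 := by
      rw [hn9, hf1]
      norm_num
    obtain ⟨h1, -, -, -⟩ := hb2 hE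
    have hv1 : (α : G → ℂ) x = 0 := by
      rw [← ha, h1, hf1]
      norm_num
    have h2 := Cfsg.Agent.Lib.Char.Values2.dvd_degree_of_vanish_pelement 3 Nat.prime_three (α : G → ℂ) (isChar α) x
      ⟨1, by rw [hx, pow_one]⟩ hv1
    have h3 : dg α = 10 := R.dα
    change 3 ∣ dg α at h2
    omega

/-- No involution commutes with a subgroup of order 9. -/
theorem no_invol_nine (hG : Nat.card G = 7920) {y : G} (hy : orderOf y = 2) {Q : Subgroup G} (hQ : Nat.card Q = 9)
    (hc : ∀ s ∈ Q, y * s = s * y) : False := by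
  classical
  have hy1 : y ≠ 1 := by
    rintro rfl
    simp at hy
  haveI : Fintype Q := Fintype.ofFinite _
  have h5 : ¬ 5 ∣ orderOf y := by rw [hy]; norm_num
  have h11 : ¬ 11 ∣ orderOf y := by rw [hy]; norm_num
  have hv : ∀ g : G, 3 ∣ orderOf g → (κ : G → ℂ) g = 0 := by
    intro g hg
    exact vanish_of_dvd κ Nat.prime_three (n := 2) (by rw [hG]; norm_num) (by rw [hG]; norm_num) (by rw [R.dκ]; norm_num) g hg
  have hord : ∀ s ∈ Q, s ≠ 1 → 3 ∣ orderOf s := by
    intro s hs hs1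
    have h1 : orderOf s ∣ 3 ^ 2 := by
      have := Subgroup.orderOf_dvd_natCard Q hs
      rwa [hQ] at this
    obtain ⟨j, -, hj⟩ := (Nat.dvd_prime_pow Nat.prime_three).1 h1
    have hj0 : j ≠ 0 := by
      rintro rfl
      exact hs1 (orderOf_eq_one_iff.1 (by simpa using hj))
    rw [hj]
    exact dvd_pow_self 3 hj0
  have hcop : ∀ s ∈ Q, Nat.Coprime 2 (orderOf s) := by
    intro s hs
    have h1 : orderOf s ∣ 3 ^ 2 := by
      have := Subgroup.orderOf_dvd_natCard Q hs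
      rwa [hQ] at this
    exact Nat.Coprime.coprime_dvd_right h1 (by norm_num)
  obtain ⟨n₁, n₂, h1, h2⟩ := mult_invol (isChar κ) hy (S := Q) hc (fun s hs hs1 => hv s (hord s hs hs1))
    (fun s hs hs1 => hv _ (by
      rw [Commute.orderOf_mul_eq_mul_orderOf_of_coprime (hc s hs) (by rw [hy]; exact hcop s hs)]
      exact Dvd.dvd.mul_left (hord s hs hs1) _))
  obtain ⟨a, ha, -⟩ := Cfsg.Agent.Lib.Char.Values2.character_involution (α : G → ℂ) (isChar α) y hy
  obtain ⟨b, hb, -⟩ := Cfsg.Agent.Lib.Char.Values2.character_involution (β : G → ℂ) (isChar β) y hy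
  obtain ⟨c, hc', -⟩ := Cfsg.Agent.Lib.Char.Values2.character_involution (γ : G → ℂ) (isChar γ) y hy
  obtain ⟨e, he, -⟩ := Cfsg.Agent.Lib.Char.Values2.character_involution (ν : G → ℂ) (isChar ν) y hy
  obtain ⟨v, hvv, -⟩ := Cfsg.Agent.Lib.Char.Values2.character_involution (κ : G → ℂ) (isChar κ) y hy
  have hθ0 : (θ : G → ℂ) y = 0 :=
    vanish_of_dvd θ Nat.prime_two (n := 4) (by rw [hG]; norm_num) (by rw [hG]; norm_num) (by rw [R.dθ]; norm_num) y (by rw [hy])
  obtain ⟨e1, e2, e3, e4⟩ := R.col_good hy1 h5 h11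
  rw [dg_cast, R.dκ, hQ, hvv] at h1 h2
  have h1' : (45 + v : ℤ) = 18 * n₁ := by
    have : ((45 + v : ℤ) : ℂ) = ((18 * n₁ : ℤ) : ℂ) := by
      push_cast at h1 ⊢
      linear_combination h1
    exact_mod_cast this
  have h2' : (45 - v : ℤ) = 18 * n₂ := by
    have : ((45 - v : ℤ) : ℂ) = ((18 * n₂ : ℤ) : ℂ) := by
      push_cast at h2 ⊢
      linear_combination h2
    exact_mod_cast this
  have hs : v = a + b + c - 1 := by
    rw [hθ0, hvv, ha, hb, hc'] at e2
    have : ((v : ℤ) : ℂ) = ((a + b + c - 1 : ℤ) : ℂ) := by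
      push_cast
      linear_combination e2
    exact_mod_cast this
  have hN := R.col_norm y
  rw [e1, e2, e3, e4, hθ0, ha, hb, hc', he] at hN
  have hN2 : (Nat.card (centralizer ({y} : Set G)) : ℤ) = 1 + a ^ 2 + b ^ 2 + c ^ 2 + (a + b + c - 1) ^ 2 + e ^ 2 + (1 + e) ^ 2 +
      (a + b + c + e) ^ 2 := by
    have h3 : (Nat.card (centralizer ({y} : Set G)) : ℝ) = ((1 + a ^ 2 + b ^ 2 + c ^ 2 + (a + b + c - 1) ^ 2 + e ^ 2 + (1 + e) ^ 2 +
      (a + b + c + e) ^ 2 : ℤ) : ℝ) := by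
      rw [hN]
      have z1 : ∀ z : ℤ, normSq ((z : ℂ)) = (z : ℝ) ^ 2 := by
        intro z
        have : ((z : ℂ)) = ((z : ℝ) : ℂ) := by push_cast; rfl
        rw [this, Complex.normSq_ofReal]
        ring
      have z2 : (0 : ℂ) - 1 + ((a : ℂ) + b + c) = ((a + b + c - 1 : ℤ) : ℂ) := by
        push_cast
        ring
      have z3 : (1 : ℂ) + e + 2 * 0 = ((1 + e : ℤ) : ℂ) := by
        push_cast
        ring
      have z4 : -((a : ℂ) + b + c + e + 3 * 0) = ((-(a + b + c + e) : ℤ) : ℂ) := by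
        push_cast
        ring
      rw [z2, z3, z4]
      simp only [z1, map_zero]
      push_cast
      ring
    exact_mod_cast h3
  have hle := Nat.le_of_dvd (by norm_num) (R.cen_dvd hG hy1 h5 h11)
  have hvc : v = 9 ∨ v = -9 ∨ v ^ 2 ≥ 729 := by
    have : n₁ ≤ 5 := by omega
    interval_cases n₁ <;> first
      | (left; omega)
      | (right; left; omega)
      | (right; right
         have hv' : v = -45 ∨ v = -27 ∨ v = 27 ∨ v = 45 := by omega
         rcases hv' with h | h | h | h <;> rw [h] <;> norm_num)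
  have hle' : (Nat.card (centralizer ({y} : Set G)) : ℤ) ≤ 144 := by exact_mod_cast hle
  rw [hN2] at hle'
  rw [← hs] at hle'
  have h3s : (a + b + c) ^ 2 ≤ 3 * (a ^ 2 + b ^ 2 + c ^ 2) := by
    nlinarith [sq_nonneg (a - b), sq_nonneg (b - c), sq_nonneg (a - c)]
  rcases hvc with h | h | h
  · rw [h] at hle' hs
    have h4 : a + b + c = 10 := by omega
    have h5 : a + b + c + e = 10 + e := by omega
    rw [h4] at h3s
    rw [h5] at hle'
    nlinarith [sq_nonneg (3 * e + 11)]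
  · rw [h] at hle' hs
    have h4 : a + b + c = -8 := by omega
    have h5 : a + b + c + e = -8 + e := by omega
    rw [h4] at h3s
    rw [h5] at hle'
    nlinarith [sq_nonneg (3 * e - 7)]
  · linarith [sq_nonneg a, sq_nonneg b, sq_nonneg c, sq_nonneg e, sq_nonneg (1 + e), sq_nonneg (a + b + c + e)]

end Rows

end Cfsg.Agent.Lib.M11Ord
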