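import Mathlib
import Cfsg.Agent.Lib.M11Ord.Three
import Cfsg.Agent.Lib.M11Rec.Basic

/-!
# Simple groups of order 7920: the Sylow 3-subgroups
-/

set_option autoImplicit false
set_option linter.unusedSectionVars false

namespace Cfsg.Agent.Lib.M11Ord

open Cfsg Subgroup Finset Complex
open Cfsg.Agent.Lib.Blocks.Principal (trivChar coe_trivChar)
open scoped ComplexConjugate

universe u

variable {G : Type u} [Group G] [Finite G]

/-- A subgroup of index two is normal: conjugation form. -/
lemma conj_mem_of_card_double {Q C : Subgroup G} (hQC : Q ≤ C) (h : Nat.card C = 2 * Nat.card Q) {u y : G}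
    (hu : u ∈ C) (hy : y ∈ Q) : u * y * u⁻¹ ∈ Q := by
  have h1 : Nat.card (Q.subgroupOf C) = Nat.card Q := Nat.card_congr (Subgroup.subgroupOfEquivOfLe hQC).toEquiv
  have h2 := Subgroup.card_mul_index (Q.subgroupOf C)
  rw [h1, h] at h2
  have h0 : 0 < Nat.card Q := Nat.card_pos
  have h3 : (Q.subgroupOf C).index = 2 := by
    apply Nat.eq_of_mul_eq_mul_left h0
    linarith
  haveI : (Q.subgroupOf C).Normal := Subgroup.normal_of_index_eq_two h3
  have h4 : (⟨y, hQC hy⟩ : C) ∈ Q.subgroupOf C := by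
    rw [Subgroup.mem_subgroupOf]
    exact hy
  have h5 := (inferInstance : (Q.subgroupOf C).Normal).conj_mem _ h4 ⟨u, hu⟩
  rw [Subgroup.mem_subgroupOf] at h5
  exact h5

/-- Subgroups of order 16. -/
lemma exists16 {D : Subgroup G} (hD : 16 ∣ Nat.card D) {y : G} (hy : y ∈ D) (ho : orderOf y = 2) :
    ∃ K : Subgroup G, Nat.card K = 16 ∧ K ≤ D ∧ y ∈ K := by
  haveI : Fact (Nat.Prime 2) := ⟨Nat.prime_two⟩
  let y' : D := ⟨y, hy⟩
  have h1 : Nat.card (zpowers y') = 2 ^ 1 := by
    rw [Nat.card_zpowers, pow_one, Subgroup.orderOf_mk, ho]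
  obtain ⟨K, hK, hle⟩ := Sylow.exists_subgroup_card_pow_prime_le 2 (m := 4) (n := 1) (by simpa using hD) (zpowers y') h1 (by norm_num)
  refine ⟨K.map D.subtype, ?_, ?_, ?_⟩
  · rw [← show (2 : ℕ) ^ 4 = 16 by norm_num, ← hK]
    exact Nat.card_congr (Subgroup.equivMapOfInjective K _ D.subtype_injective).symm.toEquiv
  · rintro _ ⟨a, -, rfl⟩
    exact a.2
  · exact ⟨y', hle (mem_zpowers y'), rfl⟩

/-- Subgroups of order 16 in a group whose Sylow 2-subgroups have order 16 are conjugate. -/
lemma conj16 (hG : Nat.card G = 7920) {A B : Subgroup G} (hA : Nat.card A = 16) (hB : Nat.card B = 16) :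
    ∃ g : G, ∀ a, a ∈ A ↔ g * a * g⁻¹ ∈ B := by
  haveI : Fact (Nat.Prime 2) := ⟨Nat.prime_two⟩
  have hf : (Nat.card G).factorization 2 = 4 := by
    rw [hG, show (7920 : ℕ) = 2 ^ 4 * 495 by norm_num, Nat.factorization_mul (by norm_num) (by norm_num),
      Nat.Prime.factorization_pow Nat.prime_two]
    simp [Nat.factorization_eq_zero_of_not_dvd (show ¬ 2 ∣ 495 by norm_num)]
  let SA : Sylow 2 G := Sylow.ofCard A (by rw [hA, hf]; norm_num)
  let SB : Sylow 2 G := Sylow.ofCard B (by rw [hB, hf]; norm_num)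
  obtain ⟨g, hg⟩ := MulAction.exists_smul_eq G SA SB
  refine ⟨g, fun a => ?_⟩
  have h2 : ((g • SA : Sylow 2 G) : Subgroup G) = B := by rw [hg]; rfl
  rw [← h2, Sylow.coe_subgroup_smul, Subgroup.mem_pointwise_smul_iff_inv_smul_mem]
  have h3 : (MulAut.conj g)⁻¹ • (g * a * g⁻¹) = a := by
    simp [MulAut.smul_def, MulAut.conj_apply, mul_assoc]
  rw [h3]
  rfl

attribute [local instance] Classical.propDecidable

section Simple

variable [IsSimpleGroup G]

namespace Rows

variable {α β γ κ θ θ' ν μ ξ : IrrCharacter G} (R : Rows α β γ κ θ θ' ν μ ξ)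

include R

/-- There are no elements of order 9. -/
theorem no_order_nine (hG : Nat.card G = 7920) {w : G} (hw : orderOf w = 9) : False := by
  classical
  have hx : orderOf (w ^ 3) = 3 := by
    rw [orderOf_pow' _ (by norm_num), hw]
    norm_num
  have hcen := (R.three_col hG hx).1
  set x := w ^ 3 with hxd
  set C := centralizer ({x} : Set G) with hC
  have hQc : Nat.card (zpowers w) = 9 := by rw [Nat.card_zpowers, hw]
  have hwC : w ∈ C := by
    rw [hC, Subgroup.mem_centralizer_singleton_iff, hxd]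
    exact ((Commute.refl w).pow_left 3).eq.symm
  have hQC : zpowers w ≤ C := by
    rw [Subgroup.zpowers_le]
    exact hwC
  haveI : Fact (Nat.Prime 2) := ⟨Nat.prime_two⟩
  obtain ⟨u', hu'⟩ := exists_prime_orderOf_dvd_card' (G := C) 2 (by rw [hcen]; norm_num)
  set u : G := (u' : G) with hud
  have hu : orderOf u = 2 := by rw [hud, Subgroup.orderOf_coe, hu']
  have huC : u ∈ C := u'.2
  have hu2 : u * u = 1 := by
    rw [← pow_two, ← hu, pow_orderOf_eq_one]
  have huinv : u⁻¹ = u := inv_eq_of_mul_eq_one_left hu2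
  have h1 : u * w * u⁻¹ ∈ zpowers w := conj_mem_of_card_double hQC (by rw [hcen, hQc]) huC (mem_zpowers w)
  obtain ⟨k, hk⟩ := (mem_powers_iff_mem_zpowers).2 h1
  have hk' : w ^ k = u * w * u⁻¹ := hk
  have h2 : w ^ (k * k) = w ^ 1 := by
    calc w ^ (k * k) = (w ^ k) ^ k := pow_mul _ _ _
      _ = (u * w * u⁻¹) ^ k := by rw [hk']
      _ = u * w ^ k * u⁻¹ := conj_pow
      _ = u * (u * w * u⁻¹) * u⁻¹ := by rw [hk']
      _ = (u * u) * w * (u * u)⁻¹ := by group
      _ = w ^ 1 := by rw [hu2]; simp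
  rw [pow_eq_pow_iff_modEq, hw] at h2
  have h3 : (k % 9) * (k % 9) % 9 = 1 := by
    have : (k * k) % 9 = 1 := h2
    rw [Nat.mul_mod] at this
    exact this
  have h4 : k % 9 = 1 ∨ k % 9 = 8 := by
    have : k % 9 < 9 := Nat.mod_lt _ (by norm_num)
    interval_cases (k % 9) <;> simp_all
  have h5 : w ^ k = w ^ (k % 9) := by
    rw [pow_eq_pow_iff_modEq, hw]
    exact (Nat.mod_modEq k 9).symm
  rcases h4 with h4 | h4
  · -- `u` commutes with `w`
    rw [h4, pow_one] at h5
    have hcomm : u * w = w * u := by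
      have h6 : u * w * u⁻¹ = w := by rw [← hk', h5]
      exact mul_inv_eq_iff_eq_mul.1 h6
    refine R.no_invol_nine hG hu hQc (fun s hs => ?_)
    obtain ⟨j, rfl⟩ := Subgroup.mem_zpowers_iff.1 hs
    exact (Commute.zpow_right hcomm j).eq
  · -- `u` inverts `w`
    rw [h4] at h5
    have h6 : u * w * u⁻¹ = w⁻¹ := by
      rw [← hk', h5]
      rw [eq_inv_iff_mul_eq_one, ← pow_succ]
      have h9 : w ^ 9 = 1 := by rw [← hw, pow_orderOf_eq_one]
      exact h9
    have h7 : u * x * u⁻¹ = x⁻¹ := by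
      rw [hxd, ← conj_pow, h6, inv_pow]
    have h8 : u * x = x * u := (Subgroup.mem_centralizer_singleton_iff.1 huC)
    have h9 : x = x⁻¹ := by
      rw [← h7, h8, mul_assoc, mul_inv_cancel, mul_one]
    have h10 : x ^ 2 = 1 := by
      rw [pow_two]
      nth_rewrite 2 [h9]
      group
    have h11 := orderOf_dvd_of_pow_eq_one h10
    rw [hx] at h11
    omega

/-- Elements of order 3 are conjugate. -/
theorem conj_of_three (hG : Nat.card G = 7920) {x y : G} (hx : orderOf x = 3) (hy : orderOf y = 3) : IsConj x y := by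
  haveI : Fintype G := Fintype.ofFinite G
  by_contra hne
  have h1 := Cfsg.Agent.Lib.Char.CompleteCor.column_orth_not_conj (G := G) (g := x) (h := y) hne
  rw [R.sum_univ (fun χ => (χ : G → ℂ) x * conj ((χ : G → ℂ) y))] at h1
  obtain ⟨-, a1, a2, a3, a4, a5, a6, a7, a8, a9⟩ := R.three_col hG hx
  obtain ⟨-, b1, b2, b3, b4, b5, b6, b7, b8, b9⟩ := R.three_col hG hy
  simp only [coe_trivChar, a1, a2, a3, a4, a5, a6, a7, a8, a9, b1, b2, b3, b4, b5, b6, b7, b8, b9] at h1
  have c2 : (starRingEnd ℂ) (2 : ℂ) = 2 := Complex.conj_ofNat 2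
  simp [c2] at h1
  norm_num at h1

end Rows

end Simple

section Sylow

variable [IsSimpleGroup G]

lemma card_sylow3 (hG : Nat.card G = 7920) (P : Sylow 3 G) : Nat.card (P : Subgroup G) = 9 := by
  haveI : Fact (Nat.Prime 3) := ⟨Nat.prime_three⟩
  obtain ⟨k, hk⟩ := IsPGroup.iff_card.mp P.isPGroup'
  have h1 : (3 : ℕ) ^ 2 ∣ Nat.card (P : Subgroup G) := P.pow_dvd_card_of_pow_dvd_card (by rw [hG]; norm_num)
  have h2 : Nat.card (P : Subgroup G) ∣ 7920 := by
    rw [← hG]
    exact Subgroup.card_subgroup_dvd_card _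
  rw [hk] at h1 h2 ⊢
  have h3 : 2 ≤ k := (Nat.pow_dvd_pow_iff_le_right (by norm_num)).1 h1
  have h4 : k < 3 := by
    by_contra h
    have h5 : (3 : ℕ) ^ 3 ∣ 3 ^ k := pow_dvd_pow 3 (by omega)
    have h6 := h5.trans h2
    norm_num at h6
  have h5 : k = 2 := by omega
  rw [h5]
  norm_num

lemma sylow3_comm (hG : Nat.card G = 7920) (P : Sylow 3 G) {a b : G} (ha : a ∈ (P : Subgroup G)) (hb : b ∈ (P : Subgroup G)) :
    a * b = b * a := by
  haveI : Fact (Nat.Prime 3) := ⟨Nat.prime_three⟩
  have h := IsPGroup.commutative_of_card_eq_prime_sq (p := 3) (G := (P : Subgroup G)) (by rw [card_sylow3 hG P]; norm_num)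
  have h1 := h ⟨a, ha⟩ ⟨b, hb⟩
  exact congrArg Subtype.val h1

lemma ncard_sharp (hG : Nat.card G = 7920) (P : Sylow 3 G) : (((P : Subgroup G) : Set G) \ {1}).ncard = 8 := by
  rw [Set.ncard_diff_singleton_of_mem (Subgroup.one_mem _)]
  have h1 : ((P : Subgroup G) : Set G).ncard = 9 := by
    rw [← Nat.card_coe_set_eq]
    exact card_sylow3 hG P
  omega

namespace Rows

variable {α β γ κ θ θ' ν μ ξ : IrrCharacter G} (R : Rows α β γ κ θ θ' ν μ ξ)

include R

/-- Elements of a Sylow 3-subgroup have order 1 or 3. -/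
theorem order_of_mem (hG : Nat.card G = 7920) (P : Sylow 3 G) {y : G} (hy : y ∈ (P : Subgroup G)) (hy1 : y ≠ 1) :
    orderOf y = 3 := by
  have h1 : orderOf y ∣ 3 ^ 2 := by
    have := Subgroup.orderOf_dvd_natCard (P : Subgroup G) hy
    rw [card_sylow3 hG P] at this
    simpa using this
  obtain ⟨j, hj2, hj⟩ := (Nat.dvd_prime_pow Nat.prime_three).1 h1
  interval_cases j
  · exact absurd (orderOf_eq_one_iff.1 (by simpa using hj)) hy1
  · simpa using hj
  · exact (R.no_order_nine hG (by simpa using hj)).elim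

theorem exp_three (hG : Nat.card G = 7920) (P : Sylow 3 G) {y : G} (hy : y ∈ (P : Subgroup G)) : y ^ 3 = 1 := by
  by_cases hy1 : y = 1
  · rw [hy1, one_pow]
  · rw [← R.order_of_mem hG P hy hy1, pow_orderOf_eq_one]

theorem exists_order_three (hG : Nat.card G = 7920) (P : Sylow 3 G) : ∃ x ∈ (P : Subgroup G), orderOf x = 3 := by
  haveI : Fact (Nat.Prime 3) := ⟨Nat.prime_three⟩
  obtain ⟨x, hx⟩ := exists_prime_orderOf_dvd_card' (G := (P : Subgroup G)) 3 (by rw [card_sylow3 hG P]; norm_num)
  exact ⟨x, x.2, by rw [Subgroup.orderOf_coe, hx]⟩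

/-- The Sylow 3-subgroups are self-centralizing. -/
theorem self_cen (hG : Nat.card G = 7920) (P : Sylow 3 G) {g : G} (hg : ∀ y ∈ (P : Subgroup G), g * y = y * g) :
    g ∈ (P : Subgroup G) := by
  classical
  obtain ⟨x, hxP, hx⟩ := R.exists_order_three hG P
  have hcen := (R.three_col hG hx).1
  let D : Subgroup G := centralizer ((P : Subgroup G) : Set G)
  have hPD : (P : Subgroup G) ≤ D := by
    intro a ha
    rw [Subgroup.mem_centralizer_iff]
    intro b hb
    exact sylow3_comm hG P hb ha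
  have hDC : D ≤ centralizer ({x} : Set G) := by
    intro a ha
    rw [Subgroup.mem_centralizer_singleton_iff]
    exact ((Subgroup.mem_centralizer_iff.1 ha) x hxP).symm
  have h1 : Nat.card D ∣ 18 := by
    rw [← hcen]
    exact Subgroup.card_dvd_of_le hDC
  have h2 : 9 ∣ Nat.card D := by
    rw [← card_sylow3 hG P]
    exact Subgroup.card_dvd_of_le hPD
  have h3 : Nat.card D = 9 ∨ Nat.card D = 18 := by
    obtain ⟨k, hk⟩ := h2
    have : Nat.card D ≤ 18 := Nat.le_of_dvd (by norm_num) h1
    have hk3 : k ≤ 2 := by omega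
    interval_cases k
    · simp at hk
      have : 0 < Nat.card D := Nat.card_pos
      omega
    · left; omega
    · right; omega
  have hgD : g ∈ D := by
    rw [Subgroup.mem_centralizer_iff]
    intro y hy
    exact (hg y hy).symm
  rcases h3 with h3 | h3
  · have h4 : (P : Subgroup G) = D := Subgroup.eq_of_le_of_card_ge hPD (by rw [h3, card_sylow3 hG P])
    rw [h4]
    exact hgD
  · exfalso
    haveI : Fact (Nat.Prime 2) := ⟨Nat.prime_two⟩
    obtain ⟨u, hu⟩ := exists_prime_orderOf_dvd_card' (G := D) 2 (by rw [h3]; norm_num)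
    refine R.no_invol_nine hG (y := (u : G)) (by rw [Subgroup.orderOf_coe, hu]) (card_sylow3 hG P) (fun s hs => ?_)
    exact ((Subgroup.mem_centralizer_iff.1 u.2) s hs).symm

/-- The centralizer of an element of order 3 normalizes the Sylow 3-subgroup. -/
theorem cen_le_normalizer (hG : Nat.card G = 7920) (P : Sylow 3 G) {x : G} (hxP : x ∈ (P : Subgroup G))
    (hx : orderOf x = 3) : centralizer ({x} : Set G) ≤ normalizer ((P : Subgroup G) : Set G) := by
  classical
  have hcen := (R.three_col hG hx).1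
  have hPC : (P : Subgroup G) ≤ centralizer ({x} : Set G) := by
    intro a ha
    rw [Subgroup.mem_centralizer_singleton_iff]
    exact sylow3_comm hG P ha hxP
  intro g hg
  rw [Subgroup.mem_normalizer_iff]
  intro h
  constructor
  · intro hh
    exact conj_mem_of_card_double hPC (by rw [hcen, card_sylow3 hG P]) hg hh
  · intro hh
    have := conj_mem_of_card_double hPC (by rw [hcen, card_sylow3 hG P]) (Subgroup.inv_mem _ hg) hh
    simpa [mul_assoc] using this

/-- **The normalizer of a Sylow 3-subgroup has order 144.** -/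
theorem card_normalizer (hG : Nat.card G = 7920) (P : Sylow 3 G) :
    Nat.card (normalizer ((P : Subgroup G) : Set G)) = 144 := by
  classical
  obtain ⟨x, hxP, hx⟩ := R.exists_order_three hG P
  have hcen := (R.three_col hG hx).1
  have hCN := R.cen_le_normalizer hG P hxP hx
  have hmain := Cfsg.Agent.Lib.M11Rec.card_mul_ncard_image (normalizer ((P : Subgroup G) : Set G)) (centralizer ({x} : Set G)) hCN
    (fun a => a * x * a⁻¹) (by
      intro a _ b _
      rw [Subgroup.mem_centralizer_singleton_iff]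
      constructor
      · intro h
        have h1 : a * x * a⁻¹ = b * x * b⁻¹ := h
        calc a⁻¹ * b * x = a⁻¹ * (b * x * b⁻¹) * b := by group
          _ = a⁻¹ * (a * x * a⁻¹) * b := by rw [h1]
          _ = x * (a⁻¹ * b) := by group
      · intro h
        change a * x * a⁻¹ = b * x * b⁻¹
        calc a * x * a⁻¹ = a * (x * (a⁻¹ * b)) * b⁻¹ := by group
          _ = a * (a⁻¹ * b * x) * b⁻¹ := by rw [h]
          _ = b * x * b⁻¹ := by group)
  have himg : (fun a => a * x * a⁻¹) '' ((normalizer ((P : Subgroup G) : Set G) : Subgroup G) : Set G) = ((P : Subgroup G) : Set G) \ {1} := by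
    ext y
    constructor
    · rintro ⟨a, ha, rfl⟩
      refine ⟨?_, ?_⟩
      · exact (Subgroup.mem_normalizer_iff.1 ha x).1 hxP
      · intro h
        have h1 : a * x * a⁻¹ = 1 := h
        have h2 : x = 1 := by
          have h3 : a * x = a := mul_inv_eq_one.1 h1
          simpa using h3
        rw [h2, orderOf_one] at hx
        omega
    · rintro ⟨hy, hy1⟩
      have hyo := R.order_of_mem hG P hy hy1
      obtain ⟨g, hg⟩ := isConj_iff.1 (R.conj_of_three hG hx hyo)
      obtain ⟨n, hn, hn'⟩ := Cfsg.Agent.Lib.Basic.SylowUtil.burnside_fusion P {x} g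
        (by
          rintro _ rfl b hb
          exact sylow3_comm hG P hxP hb)
        (by
          rintro _ rfl b hb
          rw [hg]
          exact sylow3_comm hG P hy hb)
      exact ⟨n, hn, by
        change n * x * n⁻¹ = y
        rw [hn' x rfl, hg]⟩
  rw [himg, ncard_sharp hG P, hcen] at hmain
  omega

end Rows

end Sylow

end Cfsg.Agent.Lib.M11Ord
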