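import Mathlib
import Cfsg.Agent.Lib.M11Ord.Sylow3

/-!
# Simple groups of order 7920: the column of an involution
-/

set_option autoImplicit false
set_option linter.unusedSectionVars false

namespace Cfsg.Agent.Lib.M11Ord

open Cfsg Subgroup Finset Complex
open Cfsg.Agent.Lib.Blocks.Principal (trivChar coe_trivChar)
open scoped ComplexConjugate

universe u

section KL

variable {G : Type u} [Group G] [Finite G]

/-- Multiplicities on a product of two commuting subgroups. -/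
theorem mult_prod {χ : G → ℂ} (hχ : IsCharacter G χ) {A S : Subgroup G} [Fintype A] [Fintype S]
    (hcomm : ∀ a ∈ A, ∀ s ∈ S, a * s = s * a) (lam : A →* ℂˣ) :
    ∃ n : ℕ, ∑ a : A, ∑ s : S, χ (a * s) * conj ((lam a : ℂˣ) : ℂ) = (Nat.card A : ℂ) * (Nat.card S : ℂ) * n := by
  classical
  have hcm : ∀ (a : A) (s : S), Commute (A.subtype a) (S.subtype s) := fun a s => hcomm a a.2 s s.2
  let φ : A × S →* G := MonoidHom.noncommCoprod A.subtype S.subtype hcm
  let Λ : A × S →* ℂˣ := lam.comp (MonoidHom.fst A S)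
  have hc := Cfsg.Agent.Lib.Char.Basic.isCharacter_comp_hom hχ φ
  have hsgn : IsCharacter (A × S) (fun k => ((Λ k : ℂˣ) : ℂ)) := by
    obtain ⟨n, ρ, -, h⟩ := Cfsg.Agent.Lib.Char.LinearChars.isIrr_of_hom Λ
    exact ⟨n, ρ, h⟩
  obtain ⟨u, hu⟩ := Cfsg.Agent.Lib.Char.Ortho.exists_nat_classInner_of_isCharacter hc hsgn
  refine ⟨u, ?_⟩
  rw [Cfsg.Agent.Lib.Char.Induced.classInner_def] at hu
  have hcard : (Nat.card (A × S) : ℂ) = (Nat.card A : ℂ) * (Nat.card S : ℂ) := by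
    rw [Nat.card_prod]
    push_cast
    ring
  have hne : (Nat.card (A × S) : ℂ) ≠ 0 := by exact_mod_cast Nat.card_pos.ne'
  rw [← hcard, ← hu, ← mul_assoc, mul_inv_cancel₀ hne, one_mul]
  rw [Fintype.sum_prod_type]
  refine Finset.sum_congr rfl fun a _ => Finset.sum_congr rfl fun s _ => ?_
  simp [φ, Λ, Function.comp, MonoidHom.noncommCoprod_apply]

/-- The multiplicity of a character of order 3 of a cyclic group of order 6, on a real element. -/
theorem mult_six {χ : G → ℂ} (hχ : IsCharacter G χ) {x y : G} (hx : orderOf x = 3) (hy : orderOf y = 2) (hc : x * y = y * x)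
    (hr1 : χ x⁻¹ = χ x) (hr2 : χ (x⁻¹ * y) = χ (x * y)) :
    ∃ n : ℕ, χ 1 + χ y - χ x - χ (x * y) = 6 * n := by
  classical
  have hx1 : x ≠ 1 := by
    rintro rfl
    simp at hx
  have hy1 : y ≠ 1 := by
    rintro rfl
    simp at hy
  have hx3 : x ^ 3 = 1 := by rw [← hx, pow_orderOf_eq_one]
  have hxne : x ≠ x⁻¹ := by
    intro h
    have h1 : x ^ 2 = 1 := by
      rw [pow_two]
      nth_rewrite 2 [h]
      group
    have h2 := orderOf_dvd_of_pow_eq_one h1
    rw [hx] at h2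
    omega
  haveI : Fintype (zpowers x) := Fintype.ofFinite _
  haveI : Fintype (zpowers y) := Fintype.ofFinite _
  have hcA : Nat.card (zpowers x) = 3 := by rw [Nat.card_zpowers, hx]
  have hcS : Nat.card (zpowers y) = 2 := by rw [Nat.card_zpowers, hy]
  -- the sum over `⟨y⟩`
  have hne : (1 : zpowers y) ≠ ⟨y, mem_zpowers y⟩ := fun h => hy1 (congrArg Subtype.val h).symm
  have hunivS : (univ : Finset (zpowers y)) = {1, ⟨y, mem_zpowers y⟩} := by
    symm
    apply Finset.eq_of_subset_of_card_le (Finset.subset_univ _)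
    rw [Finset.card_univ, ← Nat.card_eq_fintype_card, hcS, Finset.card_pair hne]
  have hsumS : ∀ F : zpowers y → ℂ, ∑ a, F a = F 1 + F ⟨y, mem_zpowers y⟩ := by
    intro F
    rw [hunivS, Finset.sum_pair hne]
  -- the sum over `⟨x⟩`
  let a₁ : zpowers x := ⟨x, mem_zpowers x⟩
  let a₂ : zpowers x := ⟨x⁻¹, (zpowers x).inv_mem (mem_zpowers x)⟩
  have hne1 : (1 : zpowers x) ≠ a₁ := fun h => hx1 (congrArg Subtype.val h).symm
  have hne2 : (1 : zpowers x) ≠ a₂ := fun h => hx1 (inv_eq_one.1 (congrArg Subtype.val h).symm)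
  have hne3 : a₁ ≠ a₂ := fun h => hxne (congrArg Subtype.val h)
  have huniv : (univ : Finset (zpowers x)) = {1, a₁, a₂} := by
    symm
    apply Finset.eq_of_subset_of_card_le (Finset.subset_univ _)
    rw [Finset.card_univ, ← Nat.card_eq_fintype_card, hcA, Finset.card_insert_of_notMem (by simp [hne1, hne2]),
      Finset.card_pair hne3]
  have hsum : ∀ F : zpowers x → ℂ, ∑ a, F a = F 1 + F a₁ + F a₂ := by
    intro F
    rw [huniv, Finset.sum_insert (by simp [hne1, hne2]), Finset.sum_pair hne3]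
    ring
  have hcomm : ∀ a ∈ zpowers x, ∀ s ∈ zpowers y, a * s = s * a := by
    intro a ha s hs
    obtain ⟨i, rfl⟩ := Subgroup.mem_zpowers_iff.1 ha
    obtain ⟨j, rfl⟩ := Subgroup.mem_zpowers_iff.1 hs
    have h : Commute x y := hc
    exact (h.zpow_zpow i j).eq
  obtain ⟨lam, hlam⟩ := exists_lam hx1
  set ζ : ℂ := ((lam a₁ : ℂˣ) : ℂ) with hζ
  have ha3 : a₁ ^ 3 = 1 := by
    apply Subtype.ext
    simp only [a₁, SubmonoidClass.mk_pow, OneMemClass.coe_one, hx3]
  have hζ3 : ζ ^ 3 = 1 := by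
    rw [hζ, ← Units.val_pow_eq_pow_val, ← map_pow, ha3, map_one, Units.val_one]
  have hζ1 : ζ ≠ 1 := fun h => hlam (Units.ext h)
  have hrel : ζ ^ 2 + ζ + 1 = 0 := by
    have h1 : (ζ - 1) * (ζ ^ 2 + ζ + 1) = 0 := by
      linear_combination hζ3
    rcases mul_eq_zero.1 h1 with h2 | h2
    · exact absurd (sub_eq_zero.1 h2) hζ1
    · exact h2
  set w : ℂ := conj ζ with hw
  have hwrel : w ^ 2 + w + 1 = 0 := by
    have h1 := congrArg conj hrel
    simpa [hw] using h1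
  have hw3 : w ^ 3 = 1 := by
    linear_combination (w - 1) * hwrel
  have hl2 : conj ((lam a₂ : ℂˣ) : ℂ) = w ^ 2 := by
    have h1 : a₂ = a₁⁻¹ := rfl
    rw [h1, map_inv, Units.val_inv_eq_inv_val, map_inv₀, ← hζ, ← hw]
    rw [inv_eq_iff_eq_inv]
    apply eq_inv_of_mul_eq_one_left
    rw [← pow_succ']
    exact hw3
  obtain ⟨n, h⟩ := mult_prod hχ hcomm lam
  rw [hsum, hcA, hcS] at h
  simp only [hsumS] at h
  rw [map_one, hl2] at h
  simp only [OneMemClass.coe_one, Units.val_one, map_one, mul_one, one_mul, a₂] at h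
  have h3 : (χ ((a₁ : zpowers x) : G)) = χ x := rfl
  have h4 : (χ (((a₁ : zpowers x) : G) * y)) = χ (x * y) := rfl
  rw [h3, h4, ← hζ, ← hw, hr1, hr2] at h
  refine ⟨n, ?_⟩
  push_cast at h
  linear_combination h - (χ x + χ (x * y)) * hwrel

end KL

/-- Numerics of the column of an element of order 6. -/
lemma numeric6 (a b c e : ℤ) (hs : a + b + c = 1) (hN : 6 = 1 + a ^ 2 + b ^ 2 + c ^ 2 + e ^ 2 + 2 * (1 + e) ^ 2) :
    e = 0 ∧ ((a = 1 ∧ b = 1 ∧ c = -1) ∨ (a = 1 ∧ b = -1 ∧ c = 1) ∨ (a = -1 ∧ b = 1 ∧ c = 1)) := by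
  have hc : c = 1 - a - b := by omega
  subst hc
  have ha1 : a ≤ 2 := by nlinarith [sq_nonneg b, sq_nonneg (1 - a - b), sq_nonneg e, sq_nonneg (1 + e)]
  have ha2 : -2 ≤ a := by nlinarith [sq_nonneg b, sq_nonneg (1 - a - b), sq_nonneg e, sq_nonneg (1 + e)]
  have hb1 : b ≤ 2 := by nlinarith [sq_nonneg a, sq_nonneg (1 - a - b), sq_nonneg e, sq_nonneg (1 + e)]
  have hb2 : -2 ≤ b := by nlinarith [sq_nonneg a, sq_nonneg (1 - a - b), sq_nonneg e, sq_nonneg (1 + e)]
  have he1 : e ≤ 2 := by nlinarith [sq_nonneg a, sq_nonneg b, sq_nonneg (1 - a - b), sq_nonneg (1 + e)]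
  have he2 : -3 ≤ e := by nlinarith [sq_nonneg a, sq_nonneg b, sq_nonneg (1 - a - b), sq_nonneg e]
  interval_cases a <;> interval_cases b <;> interval_cases e <;> simp at hN ⊢

lemma bd6 (a : ℤ) (h : a ^ 2 ≤ 48) : -6 ≤ a ∧ a ≤ 6 := by
  constructor <;> nlinarith

/-- Numerics of the column of an involution. -/
lemma numeric2 (a b c e : ℤ) (N : ℕ)
    (hN : (N : ℤ) = 1 + a ^ 2 + b ^ 2 + c ^ 2 + (a + b + c - 1) ^ 2 + e ^ 2 + (1 + e) ^ 2 + (a + b + c + e) ^ 2)
    (hd : N ∣ 48) (he : e % 6 = 3)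
    (h : (a % 6 = 4 ∧ b % 6 = 4 ∧ c % 6 = 2) ∨ (a % 6 = 4 ∧ b % 6 = 2 ∧ c % 6 = 4) ∨ (a % 6 = 2 ∧ b % 6 = 4 ∧ c % 6 = 4)) :
    N = 48 := by
  have hle : (N : ℤ) ≤ 48 := by exact_mod_cast Nat.le_of_dvd (by norm_num) hd
  have hN' : N = 1 ∨ N = 2 ∨ N = 3 ∨ N = 4 ∨ N = 6 ∨ N = 8 ∨ N = 12 ∨ N = 16 ∨ N = 24 ∨ N = 48 := by
    have h1 : N ∈ Nat.divisors 48 := Nat.mem_divisors.2 ⟨hd, by norm_num⟩
    have h2 : Nat.divisors 48 = {1, 2, 3, 4, 6, 8, 12, 16, 24, 48} := by decide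
    rw [h2] at h1
    simpa using h1
  have hs1 := sq_nonneg a
  have hs2 := sq_nonneg b
  have hs3 := sq_nonneg c
  have hs4 := sq_nonneg e
  have hs5 := sq_nonneg (1 + e)
  have hs6 := sq_nonneg (a + b + c - 1)
  have hs7 := sq_nonneg (a + b + c + e)
  obtain ⟨ha2, ha1⟩ := bd6 a (by linarith)
  obtain ⟨hb2, hb1⟩ := bd6 b (by linarith)
  obtain ⟨hc2, hc1⟩ := bd6 c (by linarith)
  obtain ⟨he2, he1⟩ := bd6 e (by linarith)
  have he' : e = 3 ∨ e = -3 := by omega
  have key4 : ∀ t : ℤ, -6 ≤ t → t ≤ 6 → t % 6 = 4 → t = -2 ∨ t = 4 := by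
    intro t h1 h2 h3
    omega
  have key2 : ∀ t : ℤ, -6 ≤ t → t ≤ 6 → t % 6 = 2 → t = 2 ∨ t = -4 := by
    intro t h1 h2 h3
    omega
  clear hs1 hs2 hs3 hs4 hs5 hs6 hs7 hd hle he1 he2 he
  rcases h with ⟨h1, h2, h3⟩ | ⟨h1, h2, h3⟩ | ⟨h1, h2, h3⟩
  · rcases key4 a (by omega) (by omega) h1 with rfl | rfl <;> rcases key4 b (by omega) (by omega) h2 with rfl | rfl <;>
      rcases key2 c (by omega) (by omega) h3 with rfl | rfl <;> rcases he' with rfl | rfl <;> norm_num at hN <;> omega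
  · rcases key4 a (by omega) (by omega) h1 with rfl | rfl <;> rcases key2 b (by omega) (by omega) h2 with rfl | rfl <;>
      rcases key4 c (by omega) (by omega) h3 with rfl | rfl <;> rcases he' with rfl | rfl <;> norm_num at hN <;> omega
  · rcases key2 a (by omega) (by omega) h1 with rfl | rfl <;> rcases key4 b (by omega) (by omega) h2 with rfl | rfl <;>
      rcases key4 c (by omega) (by omega) h3 with rfl | rfl <;> rcases he' with rfl | rfl <;> norm_num at hN <;> omega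

set_option maxRecDepth 100000 in
lemma dvd48_of : ∀ n ∈ Finset.range 145, n ∣ 144 → ¬ 9 ∣ n → n ∣ 48 := by decide

section Simple

variable {G : Type u} [Group G] [Finite G] [IsSimpleGroup G]

attribute [local instance] Classical.propDecidable

namespace Rows

variable {α β γ κ θ θ' ν μ ξ : IrrCharacter G} (R : Rows α β γ κ θ θ' ν μ ξ)

include R

/-- The column norm for integer values. -/
theorem col_int {g : G} (hg : g ≠ 1) (h5 : ¬ 5 ∣ orderOf g) (h11 : ¬ 11 ∣ orderOf g) (hθ0 : (θ : G → ℂ) g = 0)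
    {a b c e : ℤ} (ha : (α : G → ℂ) g = a) (hb : (β : G → ℂ) g = b) (hc : (γ : G → ℂ) g = c) (he : (ν : G → ℂ) g = e) :
    (Nat.card (centralizer ({g} : Set G)) : ℤ) = 1 + a ^ 2 + b ^ 2 + c ^ 2 + (a + b + c - 1) ^ 2 + e ^ 2 + (1 + e) ^ 2 +
      (a + b + c + e) ^ 2 := by
  obtain ⟨e1, e2, e3, e4⟩ := R.col_good hg h5 h11
  have hN := R.col_norm g
  rw [e1, e2, e3, e4, hθ0, ha, hb, hc, he] at hN
  have h3 : (Nat.card (centralizer ({g} : Set G)) : ℝ) = ((1 + a ^ 2 + b ^ 2 + c ^ 2 + (a + b + c - 1) ^ 2 + e ^ 2 + (1 + e) ^ 2 +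
      (a + b + c + e) ^ 2 : ℤ) : ℝ) := by
    rw [hN]
    have z1 : ∀ z : ℤ, normSq ((z : ℂ)) = (z : ℝ) ^ 2 := by
      intro z
      have : ((z : ℂ)) = ((z : ℝ) : ℂ) := by push_cast; rfl
      rw [this, Complex.normSq_ofReal]
      ring
    have z2 : (0 : ℂ) - 1 + ((a : ℂ) + b + c) = ((a + b + c - 1 : ℤ) : ℂ) := by
      push_cast
      ring
    have z3 : (1 : ℂ) + e + 2 * 0 = ((1 + e : ℤ) : ℂ) := by
      push_cast
      ring
    have z4 : -((a : ℂ) + b + c + e + 3 * 0) = ((-(a + b + c + e) : ℤ) : ℂ) := by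
      push_cast
      ring
    rw [z2, z3, z4]
    simp only [z1, map_zero]
    push_cast
    ring
  exact_mod_cast h3

/-- **The centralizer of an involution commuting with an element of order 3, real in the sense of `z`.** -/
theorem invol_cen (hG : Nat.card G = 7920) {x y : G} (hx : orderOf x = 3) (hy : orderOf y = 2) (hc : x * y = y * x)
    {Q : Subgroup G} (hQ : Nat.card Q = 9) (hQc : ∀ s ∈ Q, x * s = s * x) {z : G} (hz1 : z * x * z⁻¹ = x⁻¹)
    (hz2 : z * y * z⁻¹ = y) : Nat.card (centralizer ({y} : Set G)) = 48 := by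
  classical
  have hy1 : y ≠ 1 := by
    rintro rfl
    simp at hy
  set g := x * y with hg
  have hcm : Commute x y := hc
  have hcop : Nat.Coprime (orderOf x) (orderOf y) := by rw [hx, hy]; norm_num
  have hgo : orderOf g = 6 := by
    rw [hg, hcm.orderOf_mul_eq_mul_orderOf_of_coprime hcop, hx, hy]
  have hx3 : x ^ 3 = 1 := by rw [← hx, pow_orderOf_eq_one]
  have hy2 : y ^ 2 = 1 := by rw [← hy, pow_orderOf_eq_one]
  have hg4 : g ^ 4 = x := by
    rw [hg, hcm.mul_pow, show (4 : ℕ) = 3 + 1 by norm_num, pow_succ x 3, hx3, show (3 + 1 : ℕ) = 2 * 2 by norm_num,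
      pow_mul y 2 2, hy2]
    simp
  have hg3 : g ^ 3 = y := by
    rw [hg, hcm.mul_pow, hx3, show (3 : ℕ) = 2 + 1 by norm_num, pow_succ y 2, hy2]
    simp
  have hcomm_pow : ∀ c : G, c ∈ centralizer ({g} : Set G) → ∀ n : ℕ, c * g ^ n = g ^ n * c := by
    intro c hc n
    have h1 : Commute c g := (Subgroup.mem_centralizer_singleton_iff.1 hc)
    exact (h1.pow_right n).eq
  have hgC : centralizer ({g} : Set G) ≤ centralizer ({x} : Set G) := by
    intro c hc
    rw [Subgroup.mem_centralizer_singleton_iff, ← hg4]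
    exact hcomm_pow c hc 4
  have h18 := (R.three_col hG hx).1
  have hcen6 : Nat.card (centralizer ({g} : Set G)) = 6 := by
    have h1 : Nat.card (centralizer ({g} : Set G)) ∣ 18 := by
      rw [← h18]
      exact Subgroup.card_dvd_of_le hgC
    have h2 : 6 ∣ Nat.card (centralizer ({g} : Set G)) := by
      have h3 : zpowers g ≤ centralizer ({g} : Set G) := by
        rw [Subgroup.zpowers_le, Subgroup.mem_centralizer_singleton_iff]
      have h4 := Subgroup.card_dvd_of_le h3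
      rwa [Nat.card_zpowers, hgo] at h4
    obtain ⟨k, hk⟩ := h2
    have h3 : Nat.card (centralizer ({g} : Set G)) ≤ 18 := Nat.le_of_dvd (by norm_num) h1
    have hk0 : 0 < Nat.card (centralizer ({g} : Set G)) := Nat.card_pos
    have hk3 : k ≤ 3 := by omega
    interval_cases k
    · omega
    · omega
    · exfalso
      rw [hk] at h1
      norm_num at h1
    · exfalso
      have h4 : centralizer ({g} : Set G) = centralizer ({x} : Set G) :=
        Subgroup.eq_of_le_of_card_ge hgC (by omega)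
      refine R.no_invol_nine hG hy hQ (fun s hs => ?_)
      have h5 : s ∈ centralizer ({g} : Set G) := by
        rw [h4, Subgroup.mem_centralizer_singleton_iff]
        exact (hQc s hs).symm
      have h6 := hcomm_pow s h5 3
      rw [hg3] at h6
      exact h6.symm
  have hinv : z * g * z⁻¹ = x⁻¹ * y := by
    calc z * g * z⁻¹ = (z * x * z⁻¹) * (z * y * z⁻¹) := by rw [hg]; group
      _ = x⁻¹ * y := by rw [hz1, hz2]
  have hreal : ∀ χ : IrrCharacter G, (χ : G → ℂ) x⁻¹ = (χ : G → ℂ) x ∧ (χ : G → ℂ) (x⁻¹ * y) = (χ : G → ℂ) (x * y) := by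
    intro χ
    have hcl := Cfsg.Agent.Lib.Char.Basic.isClassFunction_of_isCharacter (isChar χ)
    exact ⟨by rw [← hz1]; exact hcl x z, by rw [← hinv]; exact hcl g z⟩
  -- values
  have hy5 : ¬ 5 ∣ orderOf y := by rw [hy]; norm_num
  have hy11 : ¬ 11 ∣ orderOf y := by rw [hy]; norm_num
  have hg5 : ¬ 5 ∣ orderOf g := by rw [hgo]; norm_num
  have hg11 : ¬ 11 ∣ orderOf g := by rw [hgo]; norm_num
  have hg1 : g ≠ 1 := by
    rintro h
    rw [h, orderOf_one] at hgo
    omega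
  obtain ⟨a, ha, -⟩ := Cfsg.Agent.Lib.Char.Values2.character_involution (α : G → ℂ) (isChar α) y hy
  obtain ⟨b, hb, -⟩ := Cfsg.Agent.Lib.Char.Values2.character_involution (β : G → ℂ) (isChar β) y hy
  obtain ⟨c, hc', -⟩ := Cfsg.Agent.Lib.Char.Values2.character_involution (γ : G → ℂ) (isChar γ) y hy
  obtain ⟨e, he, -⟩ := Cfsg.Agent.Lib.Char.Values2.character_involution (ν : G → ℂ) (isChar ν) y hy
  have hθy : (θ : G → ℂ) y = 0 :=
    vanish_of_dvd θ Nat.prime_two (n := 4) (by rw [hG]; norm_num) (by rw [hG]; norm_num) (by rw [R.dθ]; norm_num) y (by rw [hy])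
  have hN := R.col_int hy1 hy5 hy11 hθy ha hb hc' he
  obtain ⟨-, x1, x2, x3, x4, x5, x6, x7, x8, x9⟩ := R.three_col hG hx
  obtain ⟨n₁, h₁⟩ := mult_six (isChar α) hx hy hc (hreal α).1 (hreal α).2
  obtain ⟨n₂, h₂⟩ := mult_six (isChar β) hx hy hc (hreal β).1 (hreal β).2
  obtain ⟨n₃, h₃⟩ := mult_six (isChar γ) hx hy hc (hreal γ).1 (hreal γ).2
  obtain ⟨n₄, h₄⟩ := mult_six (isChar ν) hx hy hc (hreal ν).1 (hreal ν).2
  rw [dg_cast, R.dα, ha, x1] at h₁
  rw [dg_cast, R.dβ, hb, x2] at h₂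
  rw [dg_cast, R.dγ, hc', x3] at h₃
  rw [dg_cast, R.dν, he, x7] at h₄
  have va : (α : G → ℂ) g = ((9 + a - 6 * n₁ : ℤ) : ℂ) := by
    push_cast at h₁ ⊢
    linear_combination -h₁
  have vb : (β : G → ℂ) g = ((9 + b - 6 * n₂ : ℤ) : ℂ) := by
    push_cast at h₂ ⊢
    linear_combination -h₂
  have vc : (γ : G → ℂ) g = ((9 + c - 6 * n₃ : ℤ) : ℂ) := by
    push_cast at h₃ ⊢
    linear_combination -h₃
  have ve : (ν : G → ℂ) g = ((9 + e - 6 * n₄ : ℤ) : ℂ) := by
    push_cast at h₄ ⊢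
    linear_combination -h₄
  set a' : ℤ := 9 + a - 6 * n₁ with ha'
  set b' : ℤ := 9 + b - 6 * n₂ with hb'
  set c' : ℤ := 9 + c - 6 * n₃ with hc''
  set e' : ℤ := 9 + e - 6 * n₄ with he'
  have hθg : (θ : G → ℂ) g = 0 :=
    vanish_of_dvd θ Nat.prime_two (n := 4) (by rw [hG]; norm_num) (by rw [hG]; norm_num) (by rw [R.dθ]; norm_num) g (by rw [hgo]; norm_num)
  have hκg : (κ : G → ℂ) g = 0 :=
    vanish_of_dvd κ Nat.prime_three (n := 2) (by rw [hG]; norm_num) (by rw [hG]; norm_num) (by rw [R.dκ]; norm_num) g (by rw [hgo]; norm_num)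
  obtain ⟨-, e2, -, -⟩ := R.col_good hg1 hg5 hg11
  have hsum : a' + b' + c' = 1 := by
    rw [hκg, hθg, va, vb, vc] at e2
    have h3 : ((a' + b' + c' : ℤ) : ℂ) = ((1 : ℤ) : ℂ) := by
      push_cast
      linear_combination -e2
    exact_mod_cast h3
  have hNg := R.col_int hg1 hg5 hg11 hθg va vb vc ve
  rw [hcen6] at hNg
  have hsum2 : a' + b' + c' + e' = 1 + e' := by omega
  have hsum3 : a' + b' + c' - 1 = 0 := by omega
  rw [hsum2, hsum3] at hNg
  obtain ⟨hE, hperm⟩ := numeric6 a' b' c' e' hsum (by push_cast at hNg; linarith)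
  -- the order of the centralizer of `y`
  have h144 := R.cen_dvd hG hy1 hy5 hy11
  have h9 : ¬ 9 ∣ Nat.card (centralizer ({y} : Set G)) := by
    intro h
    haveI : Fact (Nat.Prime 3) := ⟨Nat.prime_three⟩
    obtain ⟨K, hK⟩ := Sylow.exists_subgroup_card_pow_prime 3 (show 3 ^ 2 ∣ Nat.card (centralizer ({y} : Set G)) by simpa using h)
    refine R.no_invol_nine hG (Q := K.map (centralizer ({y} : Set G)).subtype) hy ?_ ?_
    · rw [show (9 : ℕ) = 3 ^ 2 by norm_num, ← hK]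
      exact Nat.card_congr (Subgroup.equivMapOfInjective K _ (centralizer ({y} : Set G)).subtype_injective).symm.toEquiv
    · rintro _ ⟨s, -, rfl⟩
      exact (Subgroup.mem_centralizer_singleton_iff.1 s.2).symm
  have h48 : Nat.card (centralizer ({y} : Set G)) ∣ 48 := by
    exact dvd48_of _ (Finset.mem_range.2 (Nat.lt_succ_of_le (Nat.le_of_dvd (by norm_num) h144))) h144 h9
  refine numeric2 a b c e _ hN h48 (by omega) ?_
  rcases hperm with ⟨h1, h2, h3⟩ | ⟨h1, h2, h3⟩ | ⟨h1, h2, h3⟩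
  · left
    omega
  · right; left
    omega
  · right; right
    omega

end Rows

end Simple

end Cfsg.Agent.Lib.M11Ord
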